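import Cfsg.Agent.H93.Normal
import Cfsg.Agent.H94.SatTools
import Cfsg.Prelude.Def_PLocal

/-!
If the class of `S` is at most `n * (p - 1) + 1` then the `p ^ n`-th powers of `Z(S)` form a subgroup
normal in every saturated fusion system over `S`.
-/

set_option autoImplicit false
set_option linter.unusedSectionVars false

namespace Cfsg.Agent.H24

open Cfsg Cfsg.FusionSystem Cfsg.Agent.H93
open Subgroup (relIndex_mul_index inf_relIndex_right inf_relIndex_left relIndex_bot_left relIndex_mul_relIndex)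
open scoped commutatorElement

/-- If `(1 + T) ^ p = 1` and `T ^ m = 0` then `p ^ a * T ^ b = 0` for `m ≤ a * (p - 1) + b`, `1 ≤ b`. -/
theorem prime_pow_mul_pow_eq_zero {R : Type*} [Ring R] {p : ℕ} [hp : Fact p.Prime] (T : R)
    (hT : (1 + T) ^ p = 1) {m : ℕ} (hm : T ^ m = 0) :
    ∀ a b : ℕ, 1 ≤ b → m ≤ a * (p - 1) + b → (p : R) ^ a * T ^ b = 0 := by
  have hP : p.Prime := hp.out
  intro a
  induction a with
  | zero =>
    intro b _ hb
    rw [pow_zero, one_mul, show b = m + (b - m) by omega, pow_add, hm, zero_mul]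
  | succ a iha =>
    intro b
    induction hd : m - b using Nat.strong_induction_on generalizing b with
    | _ d ihb =>
    subst hd
    intro hb hab
    rcases Nat.lt_or_ge b m with hlt | hge
    swap
    · rw [show T ^ b = T ^ m * T ^ (b - m) by rw [← pow_add]; congr 1; omega, hm, zero_mul, mul_zero]
    have hexp : ∑ i ∈ (Finset.range (p + 1)).erase 0, (p : R) ^ a * T ^ (b - 1 + i) * (p.choose i : R) = 0 := by
      have h1 : (T + 1) ^ p = ∑ i ∈ Finset.range (p + 1), T ^ i * (p.choose i : R) := by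
        rw [(Commute.one_right T).add_pow]
        simp
      rw [add_comm T 1, hT, ← Finset.add_sum_erase _ _ (Finset.mem_range.mpr (Nat.succ_pos p))] at h1
      simp only [pow_zero, Nat.choose_zero_right, Nat.cast_one, mul_one] at h1
      have h2 : ∑ i ∈ (Finset.range (p + 1)).erase 0, T ^ i * (p.choose i : R) = 0 := by
        exact left_eq_add.mp h1
      calc _ = (p : R) ^ a * T ^ (b - 1) *
            ∑ i ∈ (Finset.range (p + 1)).erase 0, T ^ i * (p.choose i : R) := by
            rw [Finset.mul_sum]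
            refine Finset.sum_congr rfl fun i _ => ?_
            rw [pow_add]
            simp only [mul_assoc]
        _ = 0 := by rw [h2, mul_zero]
    have h1mem : 1 ∈ (Finset.range (p + 1)).erase 0 := by
      simp [Finset.mem_erase, hP.pos]
    rw [Finset.sum_eq_single_of_mem 1 h1mem] at hexp
    · rw [show b - 1 + 1 = b by omega, Nat.choose_one_right] at hexp
      rw [pow_succ, mul_assoc, Nat.cast_comm, ← mul_assoc]
      exact hexp
    · intro i hi hi1
      simp only [Finset.mem_erase, Finset.mem_range] at hi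
      rcases eq_or_ne i p with rfl | hip
      · rw [iha (b - 1 + i) (by omega) ?_, zero_mul]
        have h3 : (a + 1) * (i - 1) = a * (i - 1) + (i - 1) := Nat.succ_mul _ _
        omega
      · obtain ⟨c, hc⟩ : p ∣ p.choose i := hP.dvd_choose_self hi.1 (by omega)
        have h3 := ihb (m - (b - 1 + i)) (by omega) (b - 1 + i) rfl (by omega) (by omega)
        calc (p : R) ^ a * T ^ (b - 1 + i) * (p.choose i : R)
            = (p : R) ^ (a + 1) * T ^ (b - 1 + i) * (c : R) := by
              rw [hc, Nat.cast_mul, pow_succ]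
              simp only [mul_assoc, (Nat.cast_commute p (T ^ (b - 1 + i))).left_comm]
          _ = 0 := by rw [h3, zero_mul]

/-- A Sylow subgroup meets a normal subgroup in a Sylow subgroup. -/
theorem exists_sylow_of_normal {G : Type*} [Group G] [Finite G] {p : ℕ} [Fact p.Prime]
    (R : Sylow p G) (K : Subgroup G) [K.Normal] :
    ∃ Q : Sylow p K, (Q : Subgroup K) = (R : Subgroup G).subgroupOf K := by
  have hp' : IsPGroup p ((R : Subgroup G).subgroupOf K) := R.isPGroup'.comap_subtype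
  refine ⟨hp'.toSylow fun hd => R.not_dvd_index ?_, rfl⟩
  refine hd.trans ?_
  change (R : Subgroup G).relIndex K ∣ (R : Subgroup G).index
  rw [← relIndex_mul_index (le_sup_left : (R : Subgroup G) ≤ (R : Subgroup G) ⊔ K)]
  refine Dvd.dvd.mul_right (dvd_of_eq ?_) _
  set R₀ : Subgroup G := (R : Subgroup G)
  have e1 : Nat.card (R₀ ⊓ K : Subgroup G) * R₀.relIndex K = Nat.card K := by
    rw [← inf_relIndex_right, ← relIndex_bot_left, ← relIndex_bot_left,
      relIndex_mul_relIndex ⊥ (R₀ ⊓ K) K bot_le inf_le_right]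
  have e2 : Nat.card (R₀ ⊓ K : Subgroup G) * K.relIndex R₀ = Nat.card R₀ := by
    rw [← inf_relIndex_left, ← relIndex_bot_left, ← relIndex_bot_left,
      relIndex_mul_relIndex ⊥ (R₀ ⊓ K) R₀ bot_le inf_le_left]
  have e3 : Nat.card R₀ * R₀.relIndex (R₀ ⊔ K) = Nat.card (R₀ ⊔ K : Subgroup G) := by
    rw [← relIndex_bot_left, ← relIndex_bot_left, relIndex_mul_relIndex ⊥ R₀ _ bot_le le_sup_left]
  have e4 : Nat.card K * K.relIndex R₀ = Nat.card (R₀ ⊔ K : Subgroup G) := by
    rw [← Subgroup.relIndex_sup_right (H := R₀) (K := K), ← relIndex_bot_left, ← relIndex_bot_left,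
      relIndex_mul_relIndex ⊥ K _ bot_le le_sup_right]
  refine Nat.eq_of_mul_eq_mul_left (Nat.card_pos : 0 < Nat.card R₀) ?_
  rw [e3, ← e4, ← e1, ← e2]
  ring

variable {Ω : Type*} [Group Ω] {S : Subgroup Ω} {p : ℕ} [hp : Fact p.Prime]

/-- An element `y` of `S` whose `p`-th power centralizes an abelian subgroup `A ≤ S` it normalizes,
centralizes the `p ^ n`-th powers of `A`, when `S` has class at most `n * (p - 1) + 1`. -/
theorem commute_pow_of_class {A : Subgroup Ω} (hAS : A ≤ S) (hab : ∀ a ∈ A, ∀ b ∈ A, a * b = b * a)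
    {n : ℕ} (hcl : Subgroup.lowerCentralSeries S (n * (p - 1) + 1) = ⊥)
    {y : Ω} (hy : y ∈ S) (hyA : ∀ a ∈ A, y * a * y⁻¹ ∈ A) (hyp : ∀ a ∈ A, Commute (y ^ p) a) :
    ∀ a ∈ A, Commute y (a ^ p ^ n) := by
  letI : CommGroup A :=
    { (inferInstance : Group A) with mul_comm := fun a b => Subtype.ext (hab a a.2 b b.2) }
  let σ : AddMonoid.End (Additive A) :=
    { toFun := fun t => Additive.ofMul ⟨y * (t.toMul : Ω) * y⁻¹, hyA _ t.toMul.2⟩
      map_zero' := congrArg Additive.ofMul (Subtype.ext (by simp))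
      map_add' := fun s t => congrArg Additive.ofMul (Subtype.ext (by simp [mul_assoc])) }
  have hσk : ∀ (k : ℕ) (t : Additive A),
      (((σ ^ k) t).toMul : Ω) = y ^ k * (t.toMul : Ω) * (y ^ k)⁻¹ := by
    intro k
    induction k with
    | zero => intro t; simp
    | succ k ih =>
      intro t
      rw [pow_succ']
      show y * (((σ ^ k) t).toMul : Ω) * y⁻¹ = _
      rw [ih, pow_succ']
      simp [mul_assoc]
  have hσp : σ ^ p = 1 := by
    refine AddMonoidHom.ext fun t => congrArg Additive.ofMul (Subtype.ext ?_ :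
      ((σ ^ p) t).toMul = t.toMul)
    rw [hσk, (hyp _ t.toMul.2).eq, mul_inv_cancel_right]
  set T := σ - 1 with hT
  have hTmem : ∀ (k : ℕ) (t : Additive A), (((T ^ k) t).toMul : Ω) ∈ S.lowerCentralSeries k := by
    intro k
    induction k with
    | zero =>
      intro t
      exact hAS t.toMul.2
    | succ k ih =>
      intro t
      rw [pow_succ']
      show ((σ ((T ^ k) t) - (T ^ k) t).toMul : Ω) ∈ _
      set u := (((T ^ k) t).toMul : Ω) with hu
      have he : ((σ ((T ^ k) t) - (T ^ k) t).toMul : Ω) = ⁅u, y⁆⁻¹ := by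
        rw [toMul_sub]
        show y * u * y⁻¹ / u = _
        rw [div_eq_mul_inv]
        simp [commutatorElement_def, mul_assoc]
      rw [he, Subgroup.lowerCentralSeries_succ]
      exact Subgroup.inv_mem _ (Subgroup.commutator_mem_commutator (ih t) hy)
  have hTm : T ^ (n * (p - 1) + 1) = 0 := by
    refine AddMonoidHom.ext fun t => congrArg Additive.ofMul (Subtype.ext ?_ :
      ((T ^ (n * (p - 1) + 1)) t).toMul = 1)
    have := hTmem (n * (p - 1) + 1) t
    rw [hcl, Subgroup.mem_bot] at this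
    exact this
  have h := prime_pow_mul_pow_eq_zero (p := p) T (by rw [hT, add_sub_cancel, hσp]) hTm n 1 le_rfl le_rfl
  intro a ha
  have h1 := DFunLike.congr_fun h (Additive.ofMul (⟨a, ha⟩ : A))
  rw [pow_one, ← Nat.cast_pow] at h1
  have h2 : ((σ (Additive.ofMul ⟨a, ha⟩) - Additive.ofMul ⟨a, ha⟩ : Additive A).toMul : Ω) ^ p ^ n = 1 := by
    have h3 : (p ^ n) • (T (Additive.ofMul (⟨a, ha⟩ : A))) = 0 := by
      rw [AddMonoid.End.coe_mul, Function.comp_apply, AddMonoid.End.natCast_apply] at h1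
      exact h1
    have h4 := congrArg (fun t : Additive A => (t.toMul : Ω)) h3
    simp only [toMul_nsmul, SubmonoidClass.coe_pow, toMul_zero, OneMemClass.coe_one] at h4
    exact h4
  rw [toMul_sub] at h2
  change (y * a * y⁻¹ / a) ^ p ^ n = 1 at h2
  rw [div_eq_mul_inv, (show Commute (y * a * y⁻¹) a⁻¹ from
    hab _ (hyA a ha) _ (A.inv_mem ha)).mul_pow, inv_pow, conj_pow, mul_inv_eq_one] at h2
  exact mul_inv_eq_iff_eq_mul.mp h2

variable [Finite S]

/-- `℧ⁿ(Z(S))` is normal in a saturated fusion system when `S` has class at most `n * (p - 1) + 1`. -/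
theorem isNormal_powerClosure_center (hS : IsPGroup p S) (F : FusionSystem S) (hF : F.IsSaturated p)
    (n : ℕ) (hcl : Subgroup.lowerCentralSeries S (n * (p - 1) + 1) = ⊥) :
    F.IsNormal (powerClosure p n (S ⊓ Subgroup.centralizer (S : Set Ω))) := by
  set Z := S ⊓ Subgroup.centralizer (S : Set Ω) with hZ
  set U := powerClosure p n Z with hU
  have hUZ : U ≤ Z := (Subgroup.closure_le _).mpr (by
    rintro _ ⟨x, hx, rfl⟩; exact Z.pow_mem hx _)
  have hUS : U ≤ S := hUZ.trans inf_le_left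
  refine H96.isNormal_of_mapsTo F hUS fun P φ hφ => ?_
  refine H94.alperin_induction_step hS hF (fun P φ => ∃ ψ ∈ F.Hom (P ⊔ U),
      (∀ x : P, ψ (Subgroup.inclusion le_sup_left x) = φ x) ∧
      ∀ x : U, ψ (Subgroup.inclusion le_sup_right x) ∈ U)
    (fun _ _ hle _ _ hc => extendable_res hle hc)
    (fun _ _ _ _ _ _ h1 h2 hh => extendable_comp h1 h2 hh) (fun P hPn hPc _ hbig α hα => ?_) hφ
  have hPS := hPn.1
  have hfinP := finite_of_le hPS
  have := finite_mulAut hPS
  have hZP : Z ≤ P := by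
    refine le_trans (fun z hz => Subgroup.mem_inf.mpr ⟨hz.1, ?_⟩) (hPc.2 P (isConj_refl F hPS))
    exact Subgroup.mem_centralizer_iff.mpr fun x hx =>
      Subgroup.mem_centralizer_iff.mp hz.2 x (hPS hx)
  refine extendable_of_aut hPS (hUZ.trans hZP) hα ?_
  -- reduce to generators
  suffices hgen : ∀ z : P, (z : Ω) ∈ Z → ((α (z ^ p ^ n) : P) : Ω) ∈ U by
    intro x hx
    have hle : U ≤ ((U.subgroupOf P).comap α.toMonoidHom).map P.subtype := by
      refine (Subgroup.closure_le _).mpr ?_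
      rintro _ ⟨z, hz, rfl⟩
      exact ⟨⟨z, hZP hz⟩ ^ p ^ n, hgen ⟨z, hZP hz⟩ hz, rfl⟩
    obtain ⟨w, hw, he⟩ := hle hx
    obtain rfl : w = x := Subtype.ext he
    exact hw
  intro z hz
  rcases eq_or_lt_of_le hPS with hPeq | hlt
  · subst hPeq
    rw [map_pow]
    refine Subgroup.subset_closure ⟨_, Subgroup.mem_inf.mpr ⟨(α z).2, ?_⟩, rfl⟩
    refine Subgroup.mem_centralizer_iff.mpr fun x hx => ?_
    have h1 : (α⁻¹ ⟨x, hx⟩) * z = z * (α⁻¹ ⟨x, hx⟩) :=
      Subtype.ext (Subgroup.mem_centralizer_iff.mp hz.2 _ (Subtype.coe_prop _))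
    have h2 := congrArg α h1
    simp only [map_mul, MulAut.apply_inv_self] at h2
    exact congrArg Subtype.val h2
  -- the kernel of the action on the powers of `Z(P)`
  let X := F.autGroup P
  let K : Subgroup X :=
    { carrier := {β | ∀ c ∈ Subgroup.center P, (β : MulAut P) (c ^ p ^ n) = c ^ p ^ n}
      one_mem' := fun c _ => rfl
      mul_mem' := fun {a b} ha hb c hc => by
        show (a : MulAut P) ((b : MulAut P) (c ^ p ^ n)) = _
        rw [hb c hc, ha c hc]
      inv_mem' := fun {a} ha c hc => by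
        show (a : MulAut P)⁻¹ (c ^ p ^ n) = _
        conv_lhs => rw [← ha c hc]
        simp }
  have hKn : K.Normal := ⟨fun a ha g c hc => by
    show (g : MulAut P) ((a : MulAut P) ((g : MulAut P)⁻¹ (c ^ p ^ n))) = _
    have hc' : ((g : MulAut P)⁻¹ c) ∈ Subgroup.center P :=
      Subgroup.mem_center_iff.mpr fun x => by
        apply (g : MulAut P).injective
        simp only [map_mul, MulAut.apply_inv_self]
        exact Subgroup.mem_center_iff.mp hc _
    rw [map_pow (g : MulAut P)⁻¹, ha _ hc', map_pow, MulAut.apply_inv_self]⟩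
  obtain ⟨-, R, hR⟩ := IsFullyNormalized.isFullyAutomized hS hF hPn
  -- the Sylow subgroup of `K`
  obtain ⟨Q, hQ⟩ : ∃ Q : Sylow p K, (Q : Subgroup K) = (R : Subgroup X).subgroupOf K :=
    exists_sylow_of_normal R K
  have hfr := Sylow.normalizer_sup_eq_top Q
  rw [hQ, Subgroup.subgroupOf_map_subtype] at hfr
  obtain ⟨γ, hγ, k, hk, hαk⟩ := Subgroup.mem_sup_of_normal_right.mp
    (hfr ▸ Subgroup.mem_top (⟨α, hα⟩ : X))
  have hzc : z ∈ Subgroup.center P := Subgroup.mem_center_iff.mpr fun x => Subtype.ext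
    (Subgroup.mem_centralizer_iff.mp hz.2 x (hPS x.2))
  have hαz : α (z ^ p ^ n) = (γ : MulAut P) (z ^ p ^ n) := by
    have : α = (γ : MulAut P) * (k : MulAut P) := congrArg Subtype.val hαk.symm
    rw [this, MulAut.mul_apply, hk z hzc]
  rw [hαz]
  -- some element of `N_S(P)` outside `P` acts trivially on these powers
  obtain ⟨y, hyN, hyP, hyp⟩ : ∃ y ∈ normalizerIn S P, y ∉ P ∧ y ^ p ∈ P := by
    obtain ⟨g, hg, hgP⟩ := SetLike.exists_of_lt (lt_normalizerIn hS hlt)
    obtain ⟨k, hk⟩ := (IsPGroup.iff_orderOf.mp hS ⟨g, hg.1⟩)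
    have hgk : g ^ p ^ k = 1 := by
      have h5 := pow_orderOf_eq_one (⟨g, hg.1⟩ : S)
      rw [hk] at h5
      simpa using congrArg Subtype.val h5
    clear hk
    induction k generalizing g with
    | zero =>
      rw [pow_zero, pow_one] at hgk
      exact absurd (hgk.symm ▸ P.one_mem) hgP
    | succ k ih =>
      by_cases hgp : g ^ p ∈ P
      · exact ⟨g, hg, hgP, hgp⟩
      · exact ih (g ^ p) ((normalizerIn S P).pow_mem hg p) hgp (by rw [← pow_mul, ← pow_succ']; exact hgk)
  have hc : ∀ (c : P), c ∈ Subgroup.center P → Commute y ((c : Ω) ^ p ^ n) := by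
    intro c hc
    refine commute_pow_of_class (A := (Subgroup.center P).map P.subtype)
      ((Subgroup.map_subtype_le _).trans hPS) ?_ hcl hyN.1 ?_ ?_ c ⟨c, hc, rfl⟩
    · rintro _ ⟨a, ha, rfl⟩ _ ⟨b, hb, rfl⟩
      exact congrArg Subtype.val (Subgroup.mem_center_iff.mp hb a)
    · rintro _ ⟨a, ha, rfl⟩
      refine ⟨conjAut S P ⟨y, hyN⟩ a, Subgroup.mem_center_iff.mpr fun x => ?_, rfl⟩
      have h2 := congrArg (conjAut S P ⟨y, hyN⟩)
        (Subgroup.mem_center_iff.mp ha ((conjAut S P ⟨y, hyN⟩)⁻¹ x))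
      simpa only [map_mul, MulAut.apply_inv_self] using h2
    · rintro _ ⟨a, ha, rfl⟩
      exact congrArg Subtype.val (Subgroup.mem_center_iff.mp ha ⟨y ^ p, hyp⟩)
  have hyK : ∀ (h : conjAut S P ⟨y, hyN⟩ ∈ F.autGroup P), (⟨_, h⟩ : X) ∈ K := fun h c hcc =>
    Subtype.ext (by
      show y * ((c ^ p ^ n : P) : Ω) * y⁻¹ = ((c ^ p ^ n : P) : Ω)
      rw [SubmonoidClass.coe_pow, (hc c hcc).eq, mul_inv_cancel_right])
  -- `γ` extends
  have hγm := (mem_autGroup_iff hPS).1 γ.2
  have hr : (P.subtype.comp (γ : MulAut P).toMonoidHom).range = P := by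
    refine le_antisymm ?_ fun x hx => ⟨(γ : MulAut P)⁻¹ ⟨x, hx⟩, by simp⟩
    rintro _ ⟨x, rfl⟩
    exact Subtype.coe_prop _
  obtain ⟨ψ, hψ, hext⟩ := exists_extension hγm hr (IsFullyNormalized.isReceptive hS hF hPn)
  have hyE : y ∈ extender S P (P.subtype.comp (γ : MulAut P).toMonoidHom) := by
    have hcy : conjAut S P ⟨y, hyN⟩ ∈ autInducedBy S P := mem_autInducedBy.2 ⟨y, hyN.1, fun _ => rfl⟩
    have hcyX := autInducedBy_le_autGroup F hPS hcy
    have hRK : (⟨_, hcyX⟩ : X) ∈ (R : Subgroup X) ⊓ K :=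
      Subgroup.mem_inf.mpr ⟨by rw [hR]; exact hcy, hyK hcyX⟩
    have h6 := ((Subgroup.mem_normalizer_iff.mp hγ) _).mp hRK
    have h7 : ((γ * ⟨_, hcyX⟩ * γ⁻¹ : X) : MulAut P) ∈ autInducedBy S P := by
      have h8 := (Subgroup.mem_inf.mp h6).1
      rw [hR] at h8
      exact h8
    obtain ⟨h, hh, hhe⟩ := mem_autInducedBy.1 h7
    refine mem_extender.2 ⟨hyN, h, hh, fun x hx => ?_⟩
    have h9 := hhe ((γ : MulAut P) x)
    simp only [Subgroup.coe_mul, InvMemClass.coe_inv, MulAut.mul_apply, MulAut.inv_apply_self] at h9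
    exact h9
  have hlt' : P < extender S P (P.subtype.comp (γ : MulAut P).toMonoidHom) :=
    lt_of_le_not_ge (le_extender hγm) fun h => hyP (h hyE)
  have hcard : Nat.card P < Nat.card (extender S P (P.subtype.comp (γ : MulAut P).toMonoidHom)) := by
    have := finite_of_le (le_of_hom hψ)
    exact lt_of_le_of_ne (Subgroup.card_le_of_le hlt'.le) fun e =>
      hlt'.ne (Subgroup.eq_of_le_of_card_ge hlt'.le e.ge)
  obtain ⟨χ, hχ, hχ1, hχ2⟩ := hbig _ ψ hψ hcard
  have hzU : ((z ^ p ^ n : P) : Ω) ∈ U := Subgroup.subset_closure ⟨z, hz, rfl⟩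
  have e1 : ψ (Subgroup.inclusion (le_extender hγm) (z ^ p ^ n)) =
      (((γ : MulAut P) (z ^ p ^ n) : P) : Ω) := hext _
  rw [← e1, ← hχ1]
  exact hχ2 ⟨_, hzU⟩

end Cfsg.Agent.H24
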