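import Cfsg.Agent.H24.Resistant

/-!
A group acting on a finite `p`-group with an invariant normal series with cyclic steps has a normal
`p`-subgroup whose quotient is abelian of exponent dividing `p - 1`.
-/

set_option autoImplicit false

namespace Cfsg.Agent.H24

open Subgroup
open scoped commutatorElement

variable {p : ℕ} [hp : Fact p.Prime] {P : Type*} [Group P] [Finite P] {A : Type*} [Group A]

/-- The subgroup generated by commutators and `(p-1)`-th powers. -/
def powCommutator (A : Type*) [Group A] (p : ℕ) : Subgroup A :=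
  commutator A ⊔ closure (Set.range fun a : A => a ^ (p - 1))

instance powCommutator_normal : (powCommutator A p).Normal :=
  Subgroup.Normal.of_commutator_le A le_sup_left

omit hp in
theorem pow_mem_powCommutator (a : A) : a ^ (p - 1) ∈ powCommutator A p :=
  mem_sup_right (subset_closure ⟨a, rfl⟩)

omit hp in
theorem commutator_le_powCommutator : commutator A ≤ powCommutator A p := le_sup_left

/-- An element of `p`-power order is a product of `(p-1)`-th powers. -/
theorem mem_powCommutator_of_pow_eq_one {a : A} {k : ℕ} (h : a ^ p ^ k = 1) :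
    a ∈ powCommutator A p := by
  have hP : p.Prime := hp.out
  have hcop : (p - 1).Coprime (p ^ k) := Nat.Coprime.pow_right _
    ((Nat.coprime_self_sub_left hP.one_lt.le).2 (Nat.coprime_one_left p))
  have hord : (orderOf a).Coprime (p - 1) :=
    Nat.Coprime.coprime_dvd_left (orderOf_dvd_of_pow_eq_one h) hcop.symm
  obtain ⟨m, hm⟩ := exists_pow_eq_self_of_coprime hord.symm
  rw [← hm, ← pow_mul, mul_comm, pow_mul]
  rw [← pow_mul, mul_comm, pow_mul]
  exact pow_mem (pow_mem_powCommutator a) m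

/-- Every element of `N` has a `p`-power fixing `R` pointwise. -/
def NilOn (p : ℕ) (ρ : A →* MulAut P) (N : Subgroup A) (R : Subgroup P) : Prop :=
  ∀ a ∈ N, ∃ e : ℕ, ∀ y ∈ R, ρ (a ^ p ^ e) y = y

omit [Finite P] in
/-- An automorphism mapping `x` into `R ⊔ ⟨x⟩` maps powers of `x` accordingly. -/
theorem map_pow_mem_sup {R : Subgroup P} [R.Normal] (α : MulAut P) {x : P}
    (h : α x ∈ R ⊔ zpowers x) (m : ℕ) : α (x ^ m) ∈ R ⊔ zpowers (x ^ m) := by
  have key : ∀ y z : P, y ∈ R ⊔ zpowers z ↔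
      QuotientGroup.mk' R y ∈ zpowers (QuotientGroup.mk' R z) := fun y z => by
    rw [← MonoidHom.map_zpowers, ← mem_comap, comap_map_eq, QuotientGroup.ker_mk', sup_comm]
  rw [key] at h ⊢
  obtain ⟨i, hi⟩ := mem_zpowers_iff.1 h
  refine ⟨i, ?_⟩
  show QuotientGroup.mk' R (x ^ m) ^ i = _
  rw [map_pow, map_pow, map_pow, ← hi, ← zpow_natCast, ← zpow_mul, ← zpow_natCast (_ ^ i),
    ← zpow_mul, mul_comm]

variable {ρ : A →* MulAut P}

omit [Finite P] in
theorem sup_zpowers_invariant {R : Subgroup P} (hR : ∀ a, ∀ y ∈ R, ρ a y ∈ R) {x : P}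
    (hx : ∀ a, ρ a x ∈ R ⊔ zpowers x) (a : A) : ∀ y ∈ R ⊔ zpowers x, ρ a y ∈ R ⊔ zpowers x := by
  show R ⊔ zpowers x ≤ (R ⊔ zpowers x).comap (ρ a).toMonoidHom
  exact sup_le (fun y hy => mem_sup_left (hR a y hy)) (zpowers_le.mpr (hx a))

/-- A step of order `p`. -/
theorem NilOn.step (hP : IsPGroup p P) {R : Subgroup P} [R.Normal] (hR : ∀ a, ∀ y ∈ R, ρ a y ∈ R)
    {x : P} (hxp : x ^ p ∈ R) (hx : ∀ a, ρ a x ∈ R ⊔ zpowers x)
    (h : NilOn p ρ (powCommutator A p) R) : NilOn p ρ (powCommutator A p) (R ⊔ zpowers x) := by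
  have hp' : p.Prime := hp.out
  by_cases hxR : x ∈ R
  · rwa [sup_eq_left.2 (zpowers_le.mpr hxR)]
  set π := QuotientGroup.mk' R
  have hπ : ∀ {y z : P}, π y = π z ↔ y * z⁻¹ ∈ R := fun {y z} => by
    rw [← mul_inv_eq_one, ← map_inv, ← map_mul]; exact QuotientGroup.eq_one_iff _
  have hq1 : π x ≠ 1 := fun h' => hxR ((QuotientGroup.eq_one_iff _).1 h')
  have hqp : π x ^ p = 1 := by rw [← map_pow]; exact (QuotientGroup.eq_one_iff _).2 hxp
  have hord : orderOf (π x) = p := orderOf_eq_prime hqp hq1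
  -- every element acts on the step by an exponent
  have hexp : ∀ a, ∃ n : ℕ, π (ρ a x) = π x ^ n := by
    intro a
    have h1 : π (ρ a x) ∈ zpowers (π x) := by
      have := mem_map_of_mem π (hx a)
      rwa [Subgroup.map_sup, (map_eq_bot_iff R).2 (by rw [QuotientGroup.ker_mk']), bot_sup_eq,
        MonoidHom.map_zpowers] at this
    obtain ⟨n, hn⟩ := (mem_powers_iff_mem_zpowers.2 h1 : π (ρ a x) ∈ Submonoid.powers (π x))
    exact ⟨n, hn.symm⟩
  choose n hn using hexp
  have hcongr : ∀ a {y z : P}, π y = π z → π (ρ a y) = π (ρ a z) := fun a {y z} hyz => by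
    rw [hπ] at hyz ⊢
    rw [← map_inv, ← map_mul]
    exact hR a _ hyz
  have hcomp : ∀ a b, π (ρ (a * b) x) = π x ^ (n a * n b) := fun a b => by
    rw [map_mul, MulAut.mul_apply, hcongr a ((hn b).trans (map_pow π x _).symm), map_pow, map_pow,
      hn a, ← pow_mul]
  let Stab : Subgroup A :=
    { carrier := {a | π (ρ a x) = π x}
      one_mem' := by simp
      mul_mem' := fun {a b} ha hb => by
        show π (ρ (a * b) x) = π x
        rw [map_mul, MulAut.mul_apply, hcongr a (show π (ρ b x) = π x from hb)]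
        exact ha
      inv_mem' := fun {a} ha => by
        show π (ρ a⁻¹ x) = π x
        rw [← hcongr a⁻¹ (show π (ρ a x) = π x from ha), map_inv, MulAut.inv_apply_self] }
  have hN : powCommutator A p ≤ Stab := by
    refine sup_le ?_ ((closure_le _).2 ?_)
    · rw [_root_.commutator_def, Subgroup.commutator_le]
      intro a _ b _
      show π (ρ ⁅a, b⁆ x) = π x
      have hab : π (ρ (a * b) x) = π (ρ (b * a) x) := by rw [hcomp, hcomp, mul_comm]
      have h1 : (b * a)⁻¹ * (a * b) ∈ Stab := by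
        show π (ρ ((b * a)⁻¹ * (a * b)) x) = π x
        rw [map_mul, MulAut.mul_apply, hcongr _ hab, map_inv, MulAut.inv_apply_self]
      have hab' : ∀ c d : A, π (ρ (c * d) x) = π (ρ (d * c) x) := fun c d => by
        rw [hcomp, hcomp, mul_comm]
      rw [commutatorElement_def, show a * b * a⁻¹ * b⁻¹ = (a * b) * (a⁻¹ * b⁻¹) by group,
        hab', show (a⁻¹ * b⁻¹) * (a * b) = (b * a)⁻¹ * (a * b) by group]
      exact h1
    · rintro _ ⟨a, rfl⟩
      show π (ρ (a ^ (p - 1)) x) = π x
      have hk : ∀ k, π (ρ (a ^ k) x) = π x ^ (n a ^ k) := by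
        intro k
        induction k with
        | zero => simp
        | succ k ih =>
          rw [pow_succ', map_mul, MulAut.mul_apply, hcongr a (ih.trans (map_pow π x _).symm),
            map_pow, map_pow, hn a, ← pow_mul, ← pow_succ']
      have hna : (n a : ZMod p) ≠ 0 := by
        rw [Ne, ZMod.natCast_eq_zero_iff, ← hord]
        intro hd
        have h1 := (hn a).trans (orderOf_dvd_iff_pow_eq_one.1 hd)
        have h2 := hcongr a⁻¹ (h1.trans (map_one π).symm)
        rw [map_inv, MulAut.inv_apply_self, map_one, map_one] at h2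
        exact hq1 h2
      rw [hk, pow_eq_pow_of_cast hqp (v := 1) (by
        rw [Nat.cast_pow, ZMod.pow_card_sub_one_eq_one hna, Nat.cast_one]), pow_one]
  intro a ha
  obtain ⟨e, he⟩ := h a ha
  set b := a ^ p ^ e
  have hbR : ρ b x * x⁻¹ ∈ R := hπ.1 (hN (pow_mem ha _))
  obtain ⟨f, hf⟩ := hP (ρ b x * x⁻¹)
  have hk : ∀ k, ρ (b ^ k) x = (ρ b x * x⁻¹) ^ k * x := by
    intro k
    induction k with
    | zero => simp
    | succ k ih =>
      rw [pow_succ', map_mul, MulAut.mul_apply, ih, map_mul, map_pow, he _ hbR, pow_succ]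
      group
  refine ⟨e + f, fun y hy => ?_⟩
  have hle : R ⊔ zpowers x ≤ MonoidHom.eqLocus (ρ (a ^ p ^ (e + f))).toMonoidHom (MonoidHom.id P) := by
    refine sup_le (fun z hz => ?_) (zpowers_le.mpr ?_)
    · show ρ (a ^ p ^ (e + f)) z = z
      rw [pow_add, pow_mul]
      suffices ∀ k, ρ (b ^ k) z = z from this _
      intro k
      induction k with
      | zero => simp
      | succ k ih => rw [pow_succ, map_mul, MulAut.mul_apply, he z hz, ih]
    · show ρ (a ^ p ^ (e + f)) x = x
      rw [pow_add, pow_mul, hk, hf, one_mul]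
  exact hle hy

/-- A cyclic step. -/
theorem NilOn.cyclic (hP : IsPGroup p P) (k : ℕ) : ∀ {R : Subgroup P} [R.Normal],
    (∀ a, ∀ y ∈ R, ρ a y ∈ R) → ∀ {x : P}, x ^ p ^ k ∈ R → (∀ a, ρ a x ∈ R ⊔ zpowers x) →
    (R ⊔ zpowers x).Normal → NilOn p ρ (powCommutator A p) R →
    NilOn p ρ (powCommutator A p) (R ⊔ zpowers x) := by
  induction k with
  | zero =>
    intro R _ _ x hxR _ _ h
    rw [pow_zero, pow_one] at hxR
    rwa [sup_eq_left.2 (zpowers_le.mpr hxR)]
  | succ k ih =>
    intro R _ hR x hxR hx hRx h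
    have hy : ∀ a, ρ a (x ^ p) ∈ R ⊔ zpowers (x ^ p) := fun a => map_pow_mem_sup (ρ a) (hx a) p
    have hsub : R ⊔ zpowers (x ^ p) ≤ R ⊔ zpowers x :=
      sup_le_sup_left (zpowers_le.mpr (pow_mem (mem_zpowers x) p)) R
    have hn : (R ⊔ zpowers (x ^ p)).Normal := by
      constructor
      intro y hy' g
      have hle : R ⊔ zpowers (x ^ p) ≤ (R ⊔ zpowers (x ^ p)).comap (MulAut.conj g).toMonoidHom := by
        refine sup_le (fun z hz => mem_sup_left (‹R.Normal›.conj_mem z hz g)) (zpowers_le.mpr ?_)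
        exact map_pow_mem_sup (MulAut.conj g)
          (show g * x * g⁻¹ ∈ _ from hRx.conj_mem x (mem_sup_right (mem_zpowers x)) g) p
      exact hle hy'
    have h1 := ih hR (x := x ^ p) (by rwa [← pow_mul, ← pow_succ']) hy hn h
    have h2 := h1.step hP (x := x) (fun a => sup_zpowers_invariant hR hy a)
      (mem_sup_right (mem_zpowers _)) (fun a => (sup_le_sup_right le_sup_left (zpowers x) : R ⊔ zpowers x ≤ _) (hx a))
    rwa [sup_assoc, sup_eq_right.2 (zpowers_le.mpr (pow_mem (mem_zpowers x) p) :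
      zpowers (x ^ p) ≤ zpowers x)] at h2

/-- Adding a normal invariant subgroup with a cyclic quotient. -/
theorem NilOn.extend (hP : IsPGroup p P) {R R' : Subgroup P} (hRn : R.Normal) (hR'n : R'.Normal)
    (hR : ∀ a, ∀ y ∈ R, ρ a y ∈ R) (hR' : ∀ a, ∀ y ∈ R', ρ a y ∈ R') (hle : R ≤ R') {x : P}
    (hx : x ∈ R') (hsup : R' ≤ R ⊔ zpowers x) (h : NilOn p ρ (powCommutator A p) R) :
    NilOn p ρ (powCommutator A p) R' := by
  obtain rfl : R' = R ⊔ zpowers x := le_antisymm hsup (sup_le hle (zpowers_le.mpr hx))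
  obtain ⟨k, hk⟩ := hP x
  exact NilOn.cyclic hP k hR (by rw [hk]; exact one_mem _) (fun a => hR' a x hx) hR'n h

theorem nilOn_bot : NilOn p ρ (powCommutator A p) (⊥ : Subgroup P) :=
  fun a _ => ⟨0, fun y hy => by rw [Subgroup.mem_bot.1 hy, map_one]⟩

/-- The group acts with `powCommutator` a `p`-group. -/
theorem NilOn.isPGroup (hρ : Function.Injective ρ) (h : NilOn p ρ (powCommutator A p) (⊤ : Subgroup P)) :
    IsPGroup p (powCommutator A p) := by
  rintro ⟨a, ha⟩
  obtain ⟨e, he⟩ := h a ha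
  refine ⟨e, Subtype.ext (hρ (MulEquiv.ext fun y => ?_))⟩
  rw [Subgroup.coe_pow, Subgroup.coe_one, map_one]
  exact he y (mem_top y)

end Cfsg.Agent.H24
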