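import Cfsg.Agent.H24.CyclicSeries

/-!
Abelian `p`-groups with pairwise distinct invariants.
-/

set_option autoImplicit false

namespace Cfsg.Agent.H24

open Subgroup

variable {p : ℕ} [hp : Fact p.Prime]

/-- A cyclic decomposition of a finite abelian `p`-group. -/
theorem exists_pi_zmod {G : Type*} [CommGroup G] [Finite G] (hG : IsPGroup p G) :
    ∃ (ι : Type) (_ : Fintype ι) (e : ι → ℕ), (∀ i, 0 < e i) ∧
      Nonempty (G ≃* ((i : ι) → Multiplicative (ZMod (p ^ e i)))) := by
  obtain ⟨ι, inst, n, hn, ⟨E⟩⟩ := CommGroup.equiv_prod_multiplicative_zmod_of_finite G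
  classical
  have hpow : ∀ i, ∃ k, n i = p ^ k := by
    intro i
    obtain ⟨k, hk⟩ := hG (E.symm (Pi.mulSingle i (Multiplicative.ofAdd 1)))
    have h1 : (Multiplicative.ofAdd (1 : ZMod (n i))) ^ p ^ k = 1 := by
      rw [← map_pow, MulEquiv.map_eq_one_iff] at hk
      have := congrFun hk i
      simpa using this
    have h2 : ((p ^ k : ℕ) : ZMod (n i)) = 0 := by
      have := congrArg Multiplicative.toAdd h1
      simpa using this
    rw [ZMod.natCast_eq_zero_iff] at h2
    obtain ⟨j, -, hj⟩ := (Nat.dvd_prime_pow hp.out).1 h2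
    exact ⟨j, hj⟩
  choose e he using hpow
  refine ⟨ι, inst, e, fun i => ?_, ⟨E.trans (MulEquiv.piCongrRight fun i =>
    (ZMod.ringEquivCongr (he i)).toAddEquiv.toMultiplicative)⟩⟩
  rcases Nat.eq_zero_or_pos (e i) with h | h
  · have := hn i; rw [he i, h, pow_zero] at this; omega
  · exact h

variable {G : Type*} [CommGroup G] [Finite G]

/-- A subgroup of index at most `p` is completed by one element. -/
theorem exists_gen_of_relIndex_le (hG : IsPGroup p G) {R R' : Subgroup G} (hle : R ≤ R')
    (h : R.relIndex R' ≤ p) : ∃ x ∈ R', R' ≤ R ⊔ zpowers x := by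
  by_cases hR : R' ≤ R
  · exact ⟨1, one_mem _, hR.trans le_sup_left⟩
  obtain ⟨x, hx, hxR⟩ := SetLike.not_le_iff_exists.1 hR
  refine ⟨x, hx, ?_⟩
  by_contra hnot
  have h1 : p ≤ R.relIndex (R ⊔ zpowers x) :=
    le_relIndex_of_lt hG fun h' => hxR (h' (mem_sup_right (mem_zpowers x)))
  have h2 : p ≤ (R ⊔ zpowers x).relIndex R' := le_relIndex_of_lt hG hnot
  have h3 := relIndex_mul_relIndex R (R ⊔ zpowers x) R' le_sup_left (sup_le hle (zpowers_le.mpr hx))
  have := hp.out.two_le
  nlinarith

/-- The elements of order `p` which are `p ^ j`-th powers. -/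
def layer (G : Type*) [CommGroup G] (p j : ℕ) : Subgroup G :=
  (powMonoidHom p : G →* G).ker ⊓ (powMonoidHom (p ^ j) : G →* G).range

omit [Finite G] in
/-- With distinct invariants the layers drop by at most a factor `p`. -/
theorem relIndex_layer_le {ι : Type} [Fintype ι] {e : ι → ℕ} (he : Function.Injective e)
    (E : G ≃* ((i : ι) → Multiplicative (ZMod (p ^ e i)))) (j : ℕ) :
    (layer G p (j + 1)).relIndex (layer G p j) ≤ p := by
  classical
  have hP : p.Prime := hp.out
  have : ∀ i, NeZero (p ^ e i) := fun i => ⟨pow_ne_zero _ hP.ne_zero⟩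
  have hkill : ∀ i (u : Multiplicative (ZMod (p ^ e i))), u ^ p ^ e i = 1 := fun i u => by
    have := pow_card_eq_one' (x := u)
    rwa [Nat.card_congr Multiplicative.toAdd, Nat.card_zmod] at this
  -- off the coordinate of exponent `j + 1` one gets a deeper power
  have key : ∀ x ∈ layer G p j, (∀ i, e i = j + 1 → E x i = 1) → x ∈ layer G p (j + 1) := by
    rintro x ⟨hxp, z, hz⟩ hzero
    have hcoord : ∀ i, ∃ c, c ^ p ^ (j + 1) = E x i := by
      intro i
      have hxi : E x i = E z i ^ p ^ j := by rw [← hz]; simp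
      rcases Nat.lt_trichotomy (e i) (j + 1) with h | h | h
      · refine ⟨1, ?_⟩
        rw [one_pow, hxi, show j = e i + (j - e i) by omega, pow_add, pow_mul, hkill, one_pow]
      · exact ⟨1, by rw [one_pow, hzero i h]⟩
      · have h1 : E x i ^ p = 1 := by
          have h2 : x ^ p = 1 := hxp
          have := congrArg (fun w => E w i) h2
          simpa using this
        obtain ⟨g, hg⟩ := IsCyclic.exists_generator (α := Multiplicative (ZMod (p ^ e i)))
        have hgo : orderOf g = p ^ e i := by
          rw [orderOf_eq_card_of_forall_mem_zpowers hg, Nat.card_congr Multiplicative.toAdd,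
            Nat.card_zmod]
        obtain ⟨k, hk⟩ := (mem_powers_iff_mem_zpowers.2 (hg (E x i)) :
          E x i ∈ Submonoid.powers g)
        have hk' : g ^ k = E x i := hk
        rw [← hk', ← pow_mul, ← orderOf_dvd_iff_pow_eq_one, hgo] at h1
        have h2 : p ^ (j + 1) * p ∣ k * p := by
          rw [← pow_succ]
          exact dvd_trans (pow_dvd_pow p (by omega)) h1
        obtain ⟨w, rfl⟩ := Nat.dvd_of_mul_dvd_mul_right hP.pos h2
        exact ⟨g ^ w, by rw [← pow_mul, mul_comm, hk']⟩
    choose c hc using hcoord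
    refine ⟨hxp, E.symm c, ?_⟩
    show (E.symm c) ^ p ^ (j + 1) = x
    rw [← map_pow, MulEquiv.symm_apply_eq]
    funext i
    exact hc i
  by_cases hi : ∃ i, e i = j + 1
  · obtain ⟨i₀, hi₀⟩ := hi
    let π : G →* Multiplicative (ZMod (p ^ e i₀)) :=
      (Pi.evalMonoidHom (fun i => Multiplicative (ZMod (p ^ e i))) i₀).comp E.toMonoidHom
    have hle : π.ker ⊓ layer G p j ≤ layer G p (j + 1) := fun x hx =>
      key x hx.2 fun i h => by obtain rfl : i = i₀ := he (h.trans hi₀.symm); exact hx.1
    have hd := relIndex_dvd_of_le_left (layer G p j) hle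
    rw [inf_relIndex_right, relIndex_ker] at hd
    refine (Nat.le_of_dvd Nat.card_pos hd).trans (Nat.le_of_dvd hP.pos ?_)
    obtain ⟨⟨g, hg⟩, hgen⟩ := IsCyclic.exists_generator (α := (layer G p j).map π)
    rw [← orderOf_eq_card_of_forall_mem_zpowers hgen]
    refine orderOf_dvd_of_pow_eq_one (Subtype.ext ?_)
    obtain ⟨x, hx, rfl⟩ := hg
    show π x ^ p = 1
    rw [← map_pow, show x ^ p = 1 from hx.1, map_one]
  · push Not at hi
    rw [relIndex_eq_one.2 fun x hx => key x hx fun i h => absurd h (hi i)]
    exact hP.one_lt.le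

/-- The automorphism groups of abelian `p`-groups with distinct invariants. -/
theorem nilOn_top_of_distinct (hG : IsPGroup p G) {ι : Type} [Fintype ι] {e : ι → ℕ}
    (he : Function.Injective e) (E : G ≃* ((i : ι) → Multiplicative (ZMod (p ^ e i))))
    {A : Type*} [Group A] (ρ : A →* MulAut G) :
    NilOn p ρ (powCommutator A p) (⊤ : Subgroup G) := by
  have hP : p.Prime := hp.out
  obtain ⟨J, hJ⟩ : ∃ J, ∀ x : G, x ^ p ^ J = 1 := by
    obtain ⟨m, hm⟩ := hG.exists_card_eq
    exact ⟨m, fun x => hm ▸ pow_card_eq_one'⟩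
  let X : ℕ → ℕ → Subgroup G := fun k j => (layer G p j).comap (powMonoidHom (p ^ k))
  have hinv : ∀ k j a, ∀ y ∈ X k j, ρ a y ∈ X k j := by
    rintro k j a y ⟨hy, z, hz⟩
    refine ⟨?_, ρ a z, ?_⟩
    · show (ρ a y ^ p ^ k) ^ p = 1
      rw [← map_pow, ← map_pow, show (y ^ p ^ k) ^ p = 1 from hy, map_one]
    · show ρ a z ^ p ^ j = ρ a y ^ p ^ k
      rw [← map_pow, ← map_pow, show z ^ p ^ j = y ^ p ^ k from hz]
  have hmono : ∀ k j, X k (j + 1) ≤ X k j := by
    rintro k j y ⟨hy, z, hz⟩
    refine ⟨hy, z ^ p, ?_⟩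
    show (z ^ p) ^ p ^ j = _
    rw [← pow_mul, ← pow_succ']
    exact hz
  have hstep : ∀ k j, NilOn p ρ (powCommutator A p) (X k (j + 1)) →
      NilOn p ρ (powCommutator A p) (X k j) := by
    intro k j h
    have hne : (layer G p (j + 1)).relIndex (layer G p j) ≠ 0 := Nat.card_pos.ne'
    obtain ⟨x, hx, hsup⟩ := exists_gen_of_relIndex_le hG (hmono k j) (by
      show ((layer G p (j + 1)).comap _).relIndex _ ≤ p
      rw [relIndex_comap]
      exact (relIndex_le_of_le_right (map_comap_le _ _) hne).trans (relIndex_layer_le he E j))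
    exact h.extend hG inferInstance inferInstance (hinv k (j + 1)) (hinv k j) (hmono k j) hx hsup
  have key : ∀ k, NilOn p ρ (powCommutator A p) (powMonoidHom (p ^ k) : G →* G).ker := by
    intro k
    induction k with
    | zero =>
      rw [show (powMonoidHom (p ^ 0) : G →* G).ker = ⊥ from eq_bot_iff.2 fun x hx => by
        have hx' : x ^ p ^ 0 = 1 := hx
        simpa using hx']
      exact nilOn_bot
    | succ k ih =>
      have hXJ : X k J = (powMonoidHom (p ^ k) : G →* G).ker := by
        ext y
        constructor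
        · rintro ⟨-, z, hz⟩
          show y ^ p ^ k = 1
          rw [← hJ z]
          exact hz.symm
        · intro hy
          have hy' : y ^ p ^ k = 1 := hy
          refine ⟨?_, 1, ?_⟩
          · show (y ^ p ^ k) ^ p = 1
            rw [hy', one_pow]
          · show (1 : G) ^ p ^ J = y ^ p ^ k
            rw [hy', one_pow]
      have hX0 : X k 0 = (powMonoidHom (p ^ (k + 1)) : G →* G).ker := by
        ext y
        constructor
        · rintro ⟨hy, -⟩
          show y ^ p ^ (k + 1) = 1
          rw [pow_succ, pow_mul]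
          exact hy
        · intro hy
          have hy' : y ^ p ^ (k + 1) = 1 := hy
          refine ⟨?_, y ^ p ^ k, ?_⟩
          · show (y ^ p ^ k) ^ p = 1
            rwa [← pow_mul, ← pow_succ]
          · show (y ^ p ^ k) ^ p ^ 0 = y ^ p ^ k
            rw [pow_zero, pow_one]
      have hdown : ∀ d, d ≤ J → NilOn p ρ (powCommutator A p) (X k (J - d)) := by
        intro d
        induction d with
        | zero => intro _; rw [Nat.sub_zero, hXJ]; exact ih
        | succ d ihd =>
          intro hd
          refine hstep k _ ?_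
          rw [show J - (d + 1) + 1 = J - d by omega]
          exact ihd (by omega)
      rw [← hX0, ← Nat.sub_self J]
      exact hdown J le_rfl
  rw [show (⊤ : Subgroup G) = (powMonoidHom (p ^ J) : G →* G).ker from
    (eq_top_iff.2 fun x _ => hJ x).symm]
  exact key J

/-- A repeated invariant splits off a homocyclic group of rank two. -/
theorem exists_split_of_repeated {ι : Type} [Fintype ι] {e : ι → ℕ} {i j : ι} (hij : i ≠ j)
    (h : e i = e j) (E : G ≃* ((k : ι) → Multiplicative (ZMod (p ^ e k)))) :
    ∃ (H : Type) (_ : CommGroup H),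
      Nonempty (G ≃* (Multiplicative (ZMod (p ^ e i)) × Multiplicative (ZMod (p ^ e i))) × H) := by
  classical
  let c : Multiplicative (ZMod (p ^ e j)) ≃* Multiplicative (ZMod (p ^ e i)) :=
    (ZMod.ringEquivCongr (show p ^ e j = p ^ e i by rw [h])).toAddEquiv.toMultiplicative
  refine ⟨((k : {k : ι // k ≠ i ∧ k ≠ j}) → Multiplicative (ZMod (p ^ e k))), inferInstance,
    ⟨E.trans
      { toFun := fun f => ((f i, c (f j)), fun k => f k)
        invFun := fun v k => if hk : k = i then hk ▸ v.1.1 else
          if hk' : k = j then hk' ▸ c.symm v.1.2 else v.2 ⟨k, hk, hk'⟩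
        left_inv := fun f => by
          funext k
          dsimp only
          split_ifs with hk hk'
          · subst hk; rfl
          · subst hk'; simp
          · rfl
        right_inv := fun v => by
          refine Prod.ext (Prod.ext ?_ ?_) (funext fun k => ?_)
          · simp
          · simp [hij.symm]
          · simp [k.2.1, k.2.2]
        map_mul' := fun f g => by simp; rfl }⟩⟩

end Cfsg.Agent.H24
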