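import Cfsg.Agent.H24.MaxClassDegree
import Cfsg.Agent.H89.HallWielandt

/-!
A `p`-group of maximal class and order `p ^ (p + 1)`, `p` odd, does not have exponent `p`.

The proof constructs a function of weight `p` on the group which detects the centre, and expands
`(R (y ^ λ x) - 1) ^ p = 0` in the operators of right translation, reading off the part that is
linear in `y`: this is the `(p - 1)`-Engel condition.
-/

set_option linter.unusedSectionVars false

namespace Cfsg.Agent.H24

open Subgroup
open scoped commutatorElement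

variable {G : Type*} [Group G] {p : ℕ}

/-- The difference of `f` under right translation. -/
def fdiff (a : G) (f : G → ZMod p) : G → ZMod p := fun g => f (g * a) - f g

/-- `Deg N k f`: on `N` the function `f` is killed by differences of total weight `k`. -/
inductive Deg (N : Subgroup G) : ℕ → (G → ZMod p) → Prop
  | zero {f : G → ZMod p} (h : ∀ g ∈ N, f g = 0) : Deg N 0 f
  | succ {k : ℕ} {f : G → ZMod p}
      (h : ∀ w, 1 ≤ w → ∀ a ∈ N, a ∈ lcw G w → Deg N (k + 1 - w) (fdiff a f)) : Deg N (k + 1) f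

variable {N : Subgroup G}

theorem deg_zero_apply {k : ℕ} {f : G → ZMod p} (hk : k = 0) (h : Deg N k f) :
    ∀ g ∈ N, f g = 0 := by
  cases h with
  | zero h => exact h
  | succ => omega

theorem deg_fdiff {k w : ℕ} {f : G → ZMod p} (h : Deg N k f) (hw : 1 ≤ w) {a : G} (ha : a ∈ N)
    (haw : a ∈ lcw G w) : Deg N (k - w) (fdiff a f) := by
  cases h with
  | zero h =>
    rw [Nat.zero_sub]
    exact .zero fun g hg => by simp [fdiff, h g hg, h _ (mul_mem hg ha)]
  | succ h => exact h w hw a ha haw

theorem deg_of_fdiff {k : ℕ} {f : G → ZMod p} (hk : k ≠ 0)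
    (h : ∀ w, 1 ≤ w → ∀ a ∈ N, a ∈ lcw G w → Deg N (k - w) (fdiff a f)) : Deg N k f := by
  obtain ⟨k, rfl⟩ := Nat.exists_eq_succ_of_ne_zero hk
  exact .succ h

theorem deg_congr : ∀ {k : ℕ} {f f' : G → ZMod p}, (∀ g ∈ N, f g = f' g) → Deg N k f →
    Deg N k f' := by
  intro k
  induction k using Nat.strong_induction_on with
  | _ k ih =>
  intro f f' he hf
  rcases eq_or_ne k 0 with rfl | hk
  · exact .zero fun g hg => (he g hg).symm.trans (deg_zero_apply rfl hf g hg)
  · exact deg_of_fdiff hk fun w hw a ha haw => ih (k - w) (by omega)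
      (fun g hg => by simp [fdiff, he g hg, he _ (mul_mem hg ha)]) (deg_fdiff hf hw ha haw)

theorem deg_of_zero : ∀ {k : ℕ} {f : G → ZMod p}, (∀ g ∈ N, f g = 0) → Deg N k f := by
  intro k
  induction k using Nat.strong_induction_on with
  | _ k ih =>
  intro f he
  rcases eq_or_ne k 0 with rfl | hk
  · exact .zero he
  · exact deg_of_fdiff hk fun w hw a ha _ => ih (k - w) (by omega)
      fun g hg => by simp [fdiff, he g hg, he _ (mul_mem hg ha)]

theorem deg_mono : ∀ {k' k : ℕ} {f : G → ZMod p}, k ≤ k' → Deg N k f → Deg N k' f := by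
  intro k'
  induction k' using Nat.strong_induction_on with
  | _ k' ih =>
  intro k f hk hf
  rcases eq_or_ne k 0 with rfl | hk0
  · exact deg_of_zero (deg_zero_apply rfl hf)
  · exact deg_of_fdiff (by omega) fun w hw a ha haw =>
      ih (k' - w) (by omega) (by omega) (deg_fdiff hf hw ha haw)

theorem deg_const {k : ℕ} (hk : 1 ≤ k) (c : ZMod p) {f : G → ZMod p} (h : ∀ g ∈ N, f g = c) :
    Deg N k f :=
  deg_of_fdiff (by omega) fun _ _ a ha _ =>
    deg_of_zero fun g hg => by simp [fdiff, h g hg, h _ (mul_mem hg ha)]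

theorem deg_add : ∀ {k : ℕ} {f f' : G → ZMod p}, Deg N k f → Deg N k f' → Deg N k (f + f') := by
  intro k
  induction k using Nat.strong_induction_on with
  | _ k ih =>
  intro f f' hf hf'
  rcases eq_or_ne k 0 with rfl | hk
  · exact .zero fun g hg => by
      simp [deg_zero_apply rfl hf g hg, deg_zero_apply rfl hf' g hg]
  · refine deg_of_fdiff hk fun w hw a ha haw => ?_
    rw [show fdiff a (f + f') = fdiff a f + fdiff a f' from funext fun g => by
      simp [fdiff]; ring]
    exact ih (k - w) (by omega) (deg_fdiff hf hw ha haw) (deg_fdiff hf' hw ha haw)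

theorem deg_smul : ∀ {k : ℕ} {f : G → ZMod p} (c : ZMod p), Deg N k f → Deg N k (c • f) := by
  intro k
  induction k using Nat.strong_induction_on with
  | _ k ih =>
  intro f c hf
  rcases eq_or_ne k 0 with rfl | hk
  · exact .zero fun g hg => by simp [deg_zero_apply rfl hf g hg]
  · refine deg_of_fdiff hk fun w hw a ha haw => ?_
    rw [show fdiff a (c • f) = c • fdiff a f from funext fun g => by
      simp [fdiff]; ring]
    exact ih (k - w) (by omega) c (deg_fdiff hf hw ha haw)

theorem deg_translate {k : ℕ} {f : G → ZMod p} {a : G} (ha : a ∈ N) (hf : Deg N k f) :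
    Deg N k (fun g => f (g * a)) := by
  rw [show (fun g => f (g * a)) = f + fdiff a f from funext fun g => by simp [fdiff]]
  exact deg_add hf (deg_mono (Nat.sub_le k 1) (deg_fdiff hf le_rfl ha (mem_top a)))

section Conj

variable [hN : N.Normal]
include hN

theorem deg_conj (s : G) : ∀ {k : ℕ} {f : G → ZMod p}, Deg N k f →
    Deg N k (fun g => f (s * g * s⁻¹)) := by
  intro k
  induction k using Nat.strong_induction_on with
  | _ k ih =>
  intro f hf
  rcases eq_or_ne k 0 with rfl | hk
  · exact .zero fun g hg => deg_zero_apply rfl hf _ (hN.conj_mem g hg s)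
  · refine deg_of_fdiff hk fun w hw a ha haw => ?_
    rw [show fdiff a (fun g => f (s * g * s⁻¹)) = fun g => fdiff (s * a * s⁻¹) f (s * g * s⁻¹) from
      funext fun g => by
        simp only [fdiff]
        rw [show s * g * s⁻¹ * (s * a * s⁻¹) = s * (g * a) * s⁻¹ by group]]
    exact ih (k - w) (by omega) (deg_fdiff hf hw (hN.conj_mem a ha s)
      ((lcw_normal w).conj_mem a haw s))

/-- Conjugation by an element of weight `w` lowers the degree by `w`. -/
theorem deg_conj_sub [Finite G] {w : ℕ} (hw : 1 ≤ w) {s : G} (hs : s ∈ lcw G w) :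
    ∀ {k : ℕ} {f : G → ZMod p}, Deg N k f →
      Deg N (k - w) (fun g => f (s * g * s⁻¹) - f g) := by
  intro k
  induction k using Nat.strong_induction_on with
  | _ k ih =>
  intro f hf
  have hb : ∀ a ∈ N, ∀ v, 1 ≤ v → a ∈ lcw G v →
      ⁅a⁻¹, s⁆ ∈ N ∧ ⁅a⁻¹, s⁆ ∈ lcw G (v + w) ∧ s * a * s⁻¹ = a * ⁅a⁻¹, s⁆ := by
    intro a ha v hv hav
    refine ⟨?_, comm_mem_lcw hv hw (inv_mem hav) hs, by simp [commutatorElement_def, mul_assoc]⟩
    rw [show ⁅a⁻¹, s⁆ = a⁻¹ * (s * a * s⁻¹) by simp [commutatorElement_def, mul_assoc]]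
    exact mul_mem (inv_mem ha) (hN.conj_mem a ha s)
  rcases eq_or_ne (k - w) 0 with hkw | hkw
  · rw [hkw]
    refine .zero fun g hg => ?_
    obtain ⟨h1, h2, h3⟩ := hb g hg 1 le_rfl (mem_top g)
    have := deg_zero_apply (by omega) (deg_fdiff hf (by omega) h1 h2) g hg
    rw [fdiff, ← h3] at this
    exact this
  · refine deg_of_fdiff hkw fun v hv a ha hav => ?_
    obtain ⟨h1, h2, h3⟩ := hb a ha v hv hav
    rw [show fdiff a (fun g => f (s * g * s⁻¹) - f g) =
      (fun g => fdiff ⁅a⁻¹, s⁆ f (s * g * s⁻¹ * a)) +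
        (fun g => fdiff a f (s * g * s⁻¹) - fdiff a f g) from funext fun g => by
      have e : s * g * s⁻¹ * a * ⁅a⁻¹, s⁆ = s * (g * a) * s⁻¹ := by
        rw [mul_assoc, ← h3]; group
      simp only [fdiff, Pi.add_apply, e]
      ring]
    refine deg_add (deg_mono (by omega) (deg_conj s (deg_translate ha
      (deg_fdiff (w := v + w) hf (by omega) h1 h2)))) (deg_mono (k := k - v - w) (by omega) ?_)
    exact ih (k - v) (by omega) (deg_fdiff hf hv ha hav)

end Conj

section Lift

variable [Finite G] [hp : Fact p.Prime]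

open Classical in
/-- The extension of a function on `N` to `N ⊔ zpowers s`, constant along the powers of `s`. -/
noncomputable def liftFn (N : Subgroup G) (s : G) (f : G → ZMod p) : G → ZMod p := fun g =>
  if h : ∃ i : ℕ, (s ^ i)⁻¹ * g ∈ N then f ((s ^ h.choose)⁻¹ * g) else 0

variable [hN : N.Normal] {s : G} (hsN : s ∉ N) (hsp : s ^ p = 1)
include hsN hsp

theorem rep_unique {i j : ℕ} {g : G} (hi : (s ^ i)⁻¹ * g ∈ N) (hj : (s ^ j)⁻¹ * g ∈ N) :
    s ^ i = s ^ j := by
  have ho : orderOf s = p := orderOf_eq_prime hsp fun h => hsN (h ▸ one_mem N)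
  have hq : orderOf (s : G ⧸ N) = p :=
    orderOf_eq_prime (by rw [← QuotientGroup.mk_pow, hsp, QuotientGroup.mk_one])
      fun h => hsN ((QuotientGroup.eq_one_iff _).mp h)
  have h1 : (s : G ⧸ N) ^ i = (s : G ⧸ N) ^ j := by
    rw [← QuotientGroup.mk_pow, ← QuotientGroup.mk_pow, QuotientGroup.eq.mpr hi,
      QuotientGroup.eq.mpr hj]
  rw [pow_eq_pow_iff_modEq, hq] at h1
  rwa [pow_eq_pow_iff_modEq, ho]

theorem liftFn_eq (f : G → ZMod p) {i : ℕ} {g : G} (hi : (s ^ i)⁻¹ * g ∈ N) :
    liftFn N s f g = f ((s ^ i)⁻¹ * g) := by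
  have h : ∃ i : ℕ, (s ^ i)⁻¹ * g ∈ N := ⟨i, hi⟩
  rw [liftFn, dif_pos h, rep_unique hsN hsp h.choose_spec hi]

omit hsN hsp in
theorem exists_rep {g : G} (hg : g ∈ N ⊔ zpowers s) : ∃ i : ℕ, (s ^ i)⁻¹ * g ∈ N := by
  obtain ⟨n, hn, v, hv, rfl⟩ := mem_sup_of_normal_left.mp hg
  rw [← mem_powers_iff_mem_zpowers] at hv
  obtain ⟨i, rfl⟩ := hv
  exact ⟨i, by simpa [mul_assoc] using hN.conj_mem n hn (s ^ i)⁻¹⟩

theorem deg_liftFn {w : ℕ} (hw : 1 ≤ w) (hs : s ∈ lcw G w) (hlow : lcw G (w + 1) ≤ N) :
    ∀ {k : ℕ} {f : G → ZMod p}, Deg N k f → Deg (N ⊔ zpowers s) k (liftFn N s f) := by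
  intro k
  induction k using Nat.strong_induction_on with
  | _ k ih =>
  intro f hf
  rcases eq_or_ne k 0 with rfl | hk
  · exact .zero fun g hg => by
      obtain ⟨i, hi⟩ := exists_rep hg
      rw [liftFn_eq hsN hsp f hi, deg_zero_apply rfl hf _ hi]
  refine deg_of_fdiff hk fun v hv a ha hav => ?_
  obtain ⟨i, hn⟩ := exists_rep ha
  let h : G → ZMod p := fun g => f ((s ^ i)⁻¹ * g * s ^ i * ((s ^ i)⁻¹ * a)) - f g
  have hh : Deg N (k - v) h := by
    by_cases hsi : s ^ i = 1
    · have : h = fdiff a f := funext fun g => by simp [h, fdiff, hsi]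
      rw [this]
      exact deg_fdiff hf hv (by simpa [hsi] using hn) hav
    · have hvw : v ≤ w := by
        by_contra hc
        refine hsi ?_
        have haN : a ∈ N := hlow (lcw_le (by omega) hav)
        simpa using rep_unique hsN hsp hn (j := 0) (by simpa using haN)
      have hsw : (s ^ i)⁻¹ ∈ lcw G w := inv_mem (pow_mem hs i)
      have hnv : (s ^ i)⁻¹ * a ∈ lcw G v := mul_mem (lcw_le hvw hsw) hav
      rw [show h = (fun g => fdiff ((s ^ i)⁻¹ * a) f ((s ^ i)⁻¹ * g * (s ^ i)⁻¹⁻¹)) +
          (fun g => f ((s ^ i)⁻¹ * g * (s ^ i)⁻¹⁻¹) - f g) from funext fun g => by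
        simp only [h, fdiff, Pi.add_apply, inv_inv]; ring]
      exact deg_add (deg_conj _ (deg_fdiff hf hv hn hnv))
        (deg_mono (by omega) (deg_conj_sub hw hsw hf))
  refine deg_congr (fun g hg => ?_) (ih (k - v) (by omega) hh)
  obtain ⟨j, hj⟩ := exists_rep hg
  have hga : (s ^ (j + i))⁻¹ * (g * a) =
      (s ^ i)⁻¹ * ((s ^ j)⁻¹ * g) * s ^ i * ((s ^ i)⁻¹ * a) := by
    rw [pow_add]; group
  rw [liftFn_eq hsN hsp h hj, fdiff, liftFn_eq hsN hsp f (i := j + i) (by
    rw [hga]; exact mul_mem (by simpa using hN.conj_mem _ hj (s ^ i)⁻¹) hn),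
    liftFn_eq hsN hsp f hj, hga]

end Lift

/-- A function of degree `p + 1` on `N` separating `z` from `1`. -/
def HasDetector (N : Subgroup G) (p : ℕ) (z : G) : Prop :=
  z ∈ N ∧ ∃ f : G → ZMod p, Deg N (p + 1) f ∧ f z - f 1 = 1

theorem HasDetector.step [Finite G] [Fact p.Prime] {N : Subgroup G} [N.Normal] {z s : G} {w : ℕ}
    (h : HasDetector N p z) (hsN : s ∉ N) (hsp : s ^ p = 1) (hw : 1 ≤ w) (hs : s ∈ lcw G w)
    (hlow : lcw G (w + 1) ≤ N) : HasDetector (N ⊔ zpowers s) p z := by
  obtain ⟨hz, f, hf, hfz⟩ := h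
  refine ⟨mem_sup_left hz, liftFn N s f, deg_liftFn hsN hsp hw hs hlow hf, ?_⟩
  rw [liftFn_eq hsN hsp f (i := 0) (by simpa using hz),
    liftFn_eq hsN hsp f (i := 0) (g := (1 : G)) (by simp)]
  simpa using hfz

section Identities

variable {E : Type*} [Ring E]

theorem one_sub_mul_id (A B : E) :
    A * B - 1 = (A - 1) + (B - 1) + (A - 1) * (B - 1) := by noncomm_ring

theorem lie_sub_one_id (A B : E) :
    (A - 1) * (B - 1) - (B - 1) * (A - 1) = A * B - B * A := by noncomm_ring

theorem lie_step_id (C u' u U X : E) :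
    C - (X * U - U * X) =
      (C - (u' * X - X * u')) + ((u' + u) * X - X * (u' + u)) - ((u - U) * X - X * (u - U)) := by
  noncomm_ring

theorem pow_step_id (A B : E) (q : ℕ) :
    A ^ (q + 1) - B ^ (q + 1) = A ^ q * (A - B) + (A ^ q - B ^ q) * B := by
  rw [pow_succ, pow_succ]; noncomm_ring

end Identities

section Operators

variable [Finite G] [hp : Fact p.Prime]

/-- Right translation of functions. -/
def transOp : G →* Module.End (ZMod p) (G → ZMod p) where
  toFun a :=
    { toFun := fun f g => f (g * a)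
      map_add' := fun _ _ => rfl
      map_smul' := fun _ _ => rfl }
  map_one' := LinearMap.ext fun f => funext fun g => congrArg f (mul_one g)
  map_mul' a b := LinearMap.ext fun f => funext fun g => congrArg f (mul_assoc g a b).symm

/-- The difference operator. -/
def dop (a : G) : Module.End (ZMod p) (G → ZMod p) := transOp a - 1

theorem dop_apply (a : G) (f : G → ZMod p) : dop a f = fdiff a f := rfl

/-- The operator lowers degrees by `k`. -/
def Lower (k : ℕ) (T : Module.End (ZMod p) (G → ZMod p)) : Prop :=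
  ∀ m f, Deg (⊤ : Subgroup G) m f → Deg (⊤ : Subgroup G) (m - k) (T f)

theorem lower_zero {k : ℕ} : Lower k (0 : Module.End (ZMod p) (G → ZMod p)) :=
  fun _ _ _ => deg_of_zero fun _ _ => rfl

theorem Lower.mono {j k : ℕ} {T : Module.End (ZMod p) (G → ZMod p)} (h : j ≤ k)
    (hT : Lower k T) : Lower j T := fun m f hf => deg_mono (by omega) (hT m f hf)

theorem Lower.add {k : ℕ} {S T : Module.End (ZMod p) (G → ZMod p)} (hS : Lower k S)
    (hT : Lower k T) : Lower k (S + T) := fun m f hf => deg_add (hS m f hf) (hT m f hf)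

theorem Lower.smul {k : ℕ} {T : Module.End (ZMod p) (G → ZMod p)} (c : ZMod p)
    (hT : Lower k T) : Lower k (c • T) := fun m f hf => deg_smul c (hT m f hf)

theorem Lower.neg {k : ℕ} {T : Module.End (ZMod p) (G → ZMod p)} (hT : Lower k T) :
    Lower k (-T) := by
  have h := hT.smul (-1 : ZMod p)
  rwa [show (-1 : ZMod p) • T = -T from LinearMap.ext fun f => by simp] at h

theorem Lower.sub {k : ℕ} {S T : Module.End (ZMod p) (G → ZMod p)} (hS : Lower k S)
    (hT : Lower k T) : Lower k (S - T) := by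
  rw [sub_eq_add_neg]; exact hS.add hT.neg

theorem Lower.mul {j k : ℕ} {S T : Module.End (ZMod p) (G → ZMod p)} (hS : Lower j S)
    (hT : Lower k T) : Lower (j + k) (S * T) := fun m f hf => by
  rw [show m - (j + k) = m - k - j by omega]
  exact hS _ _ (hT m f hf)

theorem lower_one : Lower 0 (1 : Module.End (ZMod p) (G → ZMod p)) :=
  fun m f hf => by simpa using hf

theorem Lower.pow {T : Module.End (ZMod p) (G → ZMod p)} (hT : Lower 1 T) :
    ∀ q : ℕ, Lower q (T ^ q) := by
  intro q
  induction q with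
  | zero => simpa using lower_one
  | succ q ih => rw [pow_succ]; exact ih.mul hT

theorem lower_dop {w : ℕ} (hw : 1 ≤ w) {a : G} (ha : a ∈ lcw G w) : Lower (p := p) w (dop a) :=
  fun _ _ hf => deg_fdiff hf hw (mem_top a) ha

theorem lower_dop_one (a : G) : Lower (p := p) 1 (dop a) := lower_dop le_rfl (mem_top a)

theorem dop_mul (a b : G) : dop (p := p) (a * b) = dop a + dop b + dop a * dop b := by
  simp only [dop, map_mul]
  exact one_sub_mul_id _ _

theorem dop_one : dop (p := p) (1 : G) = 0 := by simp [dop]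

theorem lower_dop_inv {w : ℕ} (hw : 1 ≤ w) {a : G} (ha : a ∈ lcw G w) :
    Lower (p := p) (w + 1) (dop a⁻¹ + dop a) := by
  have h := dop_mul (p := p) a a⁻¹
  rw [mul_inv_cancel, dop_one] at h
  rw [show dop (p := p) a⁻¹ + dop a = -(dop a * dop a⁻¹) by
    rw [eq_neg_iff_add_eq_zero]; exact (h.trans (by abel)).symm]
  exact (((lower_dop hw ha).mul (lower_dop hw (inv_mem ha))).mono (by omega)).neg

theorem lower_dop_comm {i j : ℕ} (hi : 1 ≤ i) (hj : 1 ≤ j) {a b : G} (ha : a ∈ lcw G i)
    (hb : b ∈ lcw G j) :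
    Lower (p := p) (i + j + 1) (dop ⁅a, b⁆ - (dop a * dop b - dop b * dop a)) := by
  have h : dop (p := p) ⁅a, b⁆ - (dop a * dop b - dop b * dop a) =
      (dop a * dop b - dop b * dop a) * dop (a⁻¹ * b⁻¹) := by
    have e1 : transOp (p := p) (b * a) * transOp (a⁻¹ * b⁻¹) = 1 := by
      rw [← map_mul, show b * a * (a⁻¹ * b⁻¹) = 1 by group, map_one]
    have e2 : transOp (p := p) (a * b) * transOp (a⁻¹ * b⁻¹) = transOp ⁅a, b⁆ := by
      rw [← map_mul]; congr 1; simp [commutatorElement_def, mul_assoc]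
    have e3 : dop (p := p) a * dop b - dop b * dop a = transOp (a * b) - transOp (b * a) := by
      simp only [dop, map_mul]; exact lie_sub_one_id _ _
    rw [e3]
    simp only [dop, mul_sub, sub_mul, mul_one, e1, e2]
  rw [h]
  refine Lower.mul ?_ (lower_dop_one _)
  exact (Lower.mul (lower_dop hi ha) (lower_dop hj hb)).sub
    ((Lower.mul (lower_dop hj hb) (lower_dop hi ha)).mono (by omega))

/-- Iterated Lie commutators. -/
def adIter {E : Type*} [Ring E] (X Y : E) : ℕ → E
  | 0 => Y
  | r + 1 => X * adIter X Y r - adIter X Y r * X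

theorem lower_adIter (x y : G) : ∀ r, Lower (p := p) (r + 1) (adIter (dop x) (dop y) r) := by
  intro r
  induction r with
  | zero => exact lower_dop_one y
  | succ r ih =>
    exact (((lower_dop_one x).mul ih).mono (by omega)).sub ((ih.mul (lower_dop_one x)).mono le_rfl)

theorem lower_dop_commIter (x y : G) : ∀ r,
    Lower (p := p) (r + 2) (dop (commIter x y r) - adIter (dop x) (dop y) r) := by
  intro r
  induction r with
  | zero => simpa [commIter, adIter] using lower_zero
  | succ r ih =>
    set u := commIter x y r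
    have hu : u ∈ lcw G (r + 1) := by
      have := commIter_mem (G := G) (x := x) (i := 1) le_rfl (g := y) (mem_top y) r
      rwa [Nat.add_comm] at this
    set U := adIter (dop (p := p) x) (dop y) r
    set X := dop (p := p) x
    have h1 := lower_dop_comm (p := p) (i := r + 1) (by omega) le_rfl (inv_mem hu) (mem_top x)
    have h2 := lower_dop_inv (p := p) (w := r + 1) (by omega) hu
    rw [show dop (p := p) (commIter x y (r + 1)) - adIter X (dop y) (r + 1) =
      (dop ⁅u⁻¹, x⁆ - (dop u⁻¹ * X - X * dop u⁻¹)) + ((dop u⁻¹ + dop u) * X - X * (dop u⁻¹ + dop u))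
        - ((dop u - U) * X - X * (dop u - U)) by
      exact lie_step_id _ _ _ _ _]
    refine ((h1.mono (by omega)).add ?_).sub ?_
    · exact ((h2.mul (lower_dop_one x)).mono (by omega)).sub
        (((lower_dop_one x).mul h2).mono (by omega))
    · exact ((ih.mul (lower_dop_one x)).mono (by omega)).sub
        (((lower_dop_one x).mul ih).mono (by omega))

theorem lower_dop_pow (y : G) : ∀ l : ℕ,
    Lower (p := p) 2 (dop (y ^ l) - (l : ZMod p) • dop y) := by
  intro l
  induction l with
  | zero => simpa [dop_one] using lower_zero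
  | succ l ih =>
    rw [pow_succ, dop_mul, Nat.cast_succ, add_smul, one_smul,
      show dop (p := p) (y ^ l) + dop y + dop (y ^ l) * dop y - ((l : ZMod p) • dop y + dop y) =
        (dop (y ^ l) - (l : ZMod p) • dop y) + dop (y ^ l) * dop y by abel]
    exact ih.add ((lower_dop_one _).mul (lower_dop_one y))

theorem lower_pow_sub {A B : Module.End (ZMod p) (G → ZMod p)} (hA : Lower 1 A) (hB : Lower 1 B)
    (h : Lower 2 (A - B)) : ∀ q : ℕ, Lower (q + 1) (A ^ q - B ^ q) := by
  intro q
  induction q with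
  | zero => simpa using lower_zero
  | succ q ih =>
    rw [pow_step_id]
    exact (((hA.pow q).mul h).mono (by omega)).add ((ih.mul hB).mono le_rfl)

theorem dop_pow_prime {g : G} (hg : g ^ p = 1) : (dop (p := p) g) ^ p = 0 := by
  have : CharP (Module.End (ZMod p) (G → ZMod p)) p :=
    charP_of_injective_algebraMap (algebraMap (ZMod p) _).injective p
  rw [dop, sub_pow_char_of_commute (p := p) (Commute.one_right _), ← map_pow, hg, map_one,
    one_pow, sub_self]

/-- The coefficient of `t ^ k` in `(X + t Y) ^ q`. -/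
def binCoeff {E : Type*} [Ring E] (X Y : E) : ℕ → ℕ → E
  | 0, 0 => 1
  | 0, _ + 1 => 0
  | q + 1, 0 => X * binCoeff X Y q 0
  | q + 1, k + 1 => X * binCoeff X Y q (k + 1) + Y * binCoeff X Y q k

variable {E : Type*} [Ring E] [Algebra (ZMod p) E] (X Y : E)

omit [Algebra (ZMod p) E] in
theorem binCoeff_of_lt : ∀ q k, q < k → binCoeff X Y q k = 0 := by
  intro q
  induction q with
  | zero => intro k hk; obtain ⟨k, rfl⟩ := Nat.exists_eq_succ_of_ne_zero (by omega : k ≠ 0); rfl
  | succ q ih =>
    intro k hk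
    obtain ⟨k, rfl⟩ := Nat.exists_eq_succ_of_ne_zero (by omega : k ≠ 0)
    simp [binCoeff, ih (k + 1) (by omega), ih k (by omega)]

omit [Algebra (ZMod p) E] in
theorem binCoeff_self : ∀ q, binCoeff X Y q q = Y ^ q := by
  intro q
  induction q with
  | zero => simp [binCoeff]
  | succ q ih => simp [binCoeff, binCoeff_of_lt X Y q (q + 1), ih, pow_succ']

omit [Algebra (ZMod p) E] in
theorem binCoeff_zero : ∀ q, binCoeff X Y q 0 = X ^ q := by
  intro q
  induction q with
  | zero => simp [binCoeff]
  | succ q ih => simp [binCoeff, ih, pow_succ']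

omit [Algebra (ZMod p) E] in
theorem binCoeff_one : ∀ q,
    binCoeff X Y q 1 = ∑ i ∈ Finset.range q, X ^ i * Y * X ^ (q - 1 - i) := by
  intro q
  induction q with
  | zero => simp [binCoeff]
  | succ q ih =>
    rw [Finset.sum_range_succ']
    simp only [binCoeff, ih, binCoeff_zero, Finset.mul_sum]
    congr 1
    · refine Finset.sum_congr rfl fun i _ => ?_
      rw [show q + 1 - 1 - (i + 1) = q - 1 - i by omega, pow_succ']
      simp [mul_assoc]
    · simp

theorem pow_eq_sum_binCoeff (l : ZMod p) : ∀ q : ℕ,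
    (X + l • Y) ^ q = ∑ k ∈ Finset.range (q + 1), l ^ k • binCoeff X Y q k := by
  intro q
  induction q with
  | zero => simp [binCoeff]
  | succ q ih =>
    rw [pow_succ', ih, add_mul, Finset.mul_sum, Finset.mul_sum]
    rw [Finset.sum_range_succ' (fun k => l ^ k • binCoeff X Y (q + 1) k)]
    simp only [binCoeff, smul_add, mul_smul_comm, smul_mul_assoc, smul_smul, ← pow_succ,
      Finset.sum_add_distrib]
    rw [Finset.sum_range_succ' (fun k => l ^ k • (X * binCoeff X Y q k)),
      Finset.sum_range_succ (fun k => l ^ (k + 1) • (X * binCoeff X Y q (k + 1))),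
      binCoeff_of_lt X Y q (q + 1) (by omega)]
    simp only [mul_zero, smul_zero, add_zero]
    abel

/-- `(ad X) ^ (p - 1) Y` is the linear coefficient of `(X + t Y) ^ p`. -/
theorem adIter_pred_prime (hp2 : p ≠ 2) : adIter X Y (p - 1) = binCoeff X Y p 1 := by
  let L : Module.End (ZMod p) E := LinearMap.mulLeft (ZMod p) X
  let R : Module.End (ZMod p) E := LinearMap.mulRight (ZMod p) X
  have hc : Commute L (-R) :=
    Commute.neg_right (show Commute L R from LinearMap.ext fun Z =>
      (show X * (Z * X) = X * Z * X from (mul_assoc _ _ _).symm))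
  have hiter : ∀ r, adIter X Y r = ((L + -R) ^ r) Y := by
    intro r
    induction r with
    | zero => simp [adIter]
    | succ r ih => rw [pow_succ']; simp [adIter, ih, L, R, sub_eq_add_neg]
  have hterm : ∀ i ∈ Finset.range (p - 1 + 1),
      L ^ i * (-R) ^ (p - 1 - i) * ((p - 1).choose i : Module.End (ZMod p) E) =
        L ^ i * R ^ (p - 1 - i) := by
    intro i hi
    rw [Finset.mem_range] at hi
    have hi' : i < p := by have := hp.out.pos; omega
    rw [← map_natCast (algebraMap (ZMod p) (Module.End (ZMod p) E)),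
      H89.choose_pred_prime_cast i hi', map_pow, map_neg, map_one]
    have heven : Even (p - 1) := Nat.Odd.sub_odd (hp.out.odd_of_ne_two hp2) odd_one
    rw [neg_pow R (p - 1 - i), mul_assoc, mul_assoc, ← (Commute.neg_one_left (R ^ (p - 1 - i))).pow_left i
      |>.eq, ← mul_assoc ((-1 : Module.End (ZMod p) E) ^ (p - 1 - i)), ← pow_add,
      show p - 1 - i + i = p - 1 by omega]
    exact congrArg (L ^ i * ·)
      ((congrArg (· * R ^ (p - 1 - i)) heven.neg_one_pow).trans (one_mul _))
  rw [hiter, hc.add_pow, Finset.sum_congr rfl hterm, binCoeff_one,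
    Nat.sub_add_cancel hp.out.one_le, LinearMap.sum_apply]
  refine Finset.sum_congr rfl fun i _ => ?_
  simp [L, R, LinearMap.pow_mulLeft, LinearMap.pow_mulRight, mul_assoc]

end Operators

/-- In a group of exponent `p`, a function of degree `p + 1` does not see the Engel commutators of
length `p`. -/
theorem engel_of_deg [Finite G] [hp : Fact p.Prime] (hp2 : p ≠ 2) (hexp : ∀ g : G, g ^ p = 1)
    {f : G → ZMod p} (hf : Deg (⊤ : Subgroup G) (p + 1) f) (x y : G) :
    f (commIter x y (p - 1)) = f 1 := by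
  have hP : p.Prime := hp.out
  set X := dop (p := p) x
  set Y := dop (p := p) y
  let ψ : Module.End (ZMod p) (G → ZMod p) →ₗ[ZMod p] ZMod p :=
    { toFun := fun T => T f 1
      map_add' := fun _ _ => rfl
      map_smul' := fun _ _ => rfl }
  have hkill : ∀ {T : Module.End (ZMod p) (G → ZMod p)}, Lower (p + 1) T → ψ T = 0 :=
    fun hT => deg_zero_apply (by omega) (hT _ f hf) 1 (mem_top 1)
  have hval : ∀ l : ℕ, ψ ((X + (l : ZMod p) • Y) ^ p) = 0 := by
    intro l
    have h1 : Lower (p := p) 2 (dop (y ^ l * x) - (X + (l : ZMod p) • Y)) := by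
      rw [dop_mul, show dop (p := p) (y ^ l) + dop x + dop (y ^ l) * dop x - (X + (l : ZMod p) • Y) =
        (dop (y ^ l) - (l : ZMod p) • Y) + dop (y ^ l) * dop x by abel]
      exact (lower_dop_pow y l).add ((lower_dop_one _).mul (lower_dop_one x))
    have h2 := lower_pow_sub (lower_dop_one (p := p) (y ^ l * x))
      ((lower_dop_one x).add ((lower_dop_one y).smul _)) h1 p
    rw [dop_pow_prime (hexp _), zero_sub] at h2
    simpa using hkill h2
  open Polynomial in
  have hcoef : ψ (binCoeff X Y p 1) = 0 := by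
    set P : (ZMod p)[X] := ∑ k ∈ Finset.range p, C (ψ (binCoeff X Y p k)) * Polynomial.X ^ k
    have hP0 : P = 0 := by
      refine Polynomial.eq_zero_of_natDegree_lt_card_of_eval_eq_zero P
        (ι := ZMod p) Function.injective_id (fun c => ?_) ?_
      · have h := hval c.val
        rw [ZMod.natCast_zmod_val, pow_eq_sum_binCoeff X Y c p, Finset.sum_range_succ, binCoeff_self,
          dop_pow_prime (hexp y), smul_zero, add_zero, map_sum] at h
        simp only [map_smul, smul_eq_mul] at h
        simp only [P, eval_finsetSum, eval_mul, eval_C, eval_pow, eval_X, id_eq]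
        rw [← h]
        exact Finset.sum_congr rfl fun k _ => mul_comm _ _
      · rw [ZMod.card]
        refine lt_of_le_of_lt (natDegree_sum_le_of_forall_le _ _ (n := p - 1) fun k hk => ?_)
          (by have := hP.pos; omega)
        rw [Finset.mem_range] at hk
        exact (natDegree_C_mul_X_pow_le _ _).trans (by omega)
    have h1 := congrArg (fun Q : (ZMod p)[X] => Q.coeff 1) hP0
    simpa [P, coeff_C_mul, coeff_X_pow, Finset.sum_ite_eq, hP.one_lt] using h1
  rw [← adIter_pred_prime X Y hp2] at hcoef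
  have h3 := hkill ((lower_dop_commIter (p := p) x y (p - 1)).mono
    (by have := hP.pos; omega : p + 1 ≤ p - 1 + 2))
  rw [map_sub, hcoef, sub_zero] at h3
  simpa [ψ, dop_apply, fdiff, sub_eq_zero] using h3

/-- A `p`-group of maximal class and order `p ^ (p + 1)`, `p` odd, has an element whose `p`-th
power is nontrivial. -/
theorem MaxSetting.exists_pow_ne_one {G : Type*} [Group G] [Finite G] [hp : Fact p.Prime]
    (S : MaxSetting G p (p + 1)) (hp2 : p ≠ 2) : ∃ g : G, g ^ p ≠ 1 := by
  by_contra hexp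
  push Not at hexp
  have hP : p.Prime := hp.out
  have hp3 : 3 ≤ p := by have := hP.two_le; omega
  obtain ⟨x, hx, -, hCx⟩ := S.exists_small hp2
  obtain ⟨y, hy⟩ := S.exists_comm_not_mem hx
  set a := ⁅y⁻¹, x⁆ with ha
  have ha2 : a ∈ lcw G 2 := comm_mem_lcw (i := 1) le_rfl le_rfl (mem_top _) (mem_top x)
  have ha3 : a ∉ lcw G 3 := by
    intro h
    apply hy
    rw [show ⁅y, x⁆ = y * a⁻¹ * y⁻¹ by simp [ha, commutatorElement_def, mul_assoc]]
    exact (lcw_normal _).conj_mem _ (inv_mem h) y
  have hshift : ∀ r, commIter x y (r + 1) = commIter x a r := by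
    intro r
    induction r with
    | zero => rfl
    | succ r ih => show ⁅(commIter x y (r + 1))⁻¹, x⁆ = _; rw [ih]; rfl
  set z := commIter x y (p - 1)
  have hz : z = commIter x a (p - 2) := by
    show commIter x y (p - 1) = _
    rw [← hshift, show p - 2 + 1 = p - 1 by omega]
  have hzp : z ∈ lcw G p := by
    have := commIter_mem (x := x) (by omega) ha2 (p - 2)
    rwa [← hz, show 2 + (p - 2) = p by omega] at this
  have hz1 : z ∉ lcw G (p + 1) := by
    have := S.commIter_not_mem (by omega) hCx (i := 2) le_rfl ha2 ha3 (p - 2) (by omega)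
    rwa [← hz, show 2 + (p - 2) + 1 = p + 1 by omega] at this
  rw [S.lcw_top_eq, mem_bot] at hz1
  -- detectors along the lower central series
  have hcard : Nat.card (lcw G p) = p := by
    rw [S.card_lcw (by omega) (by omega), show p + 1 - p = 1 by omega, pow_one]
  have hgen : zpowers z = lcw G p := zpowers_eq_of_card_prime hcard hzp hz1
  have hbase : HasDetector (lcw G p) p z := by
    classical
    let f : G → ZMod p := fun g => if h : ∃ i : ℕ, z ^ i = g then (h.choose : ZMod p) else 0
    have hoz : orderOf z = p := orderOf_eq_prime (hexp z) hz1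
    have hf : ∀ i : ℕ, f (z ^ i) = i := fun i => by
      have h : ∃ j : ℕ, z ^ j = z ^ i := ⟨i, rfl⟩
      have h2 := h.choose_spec
      rw [pow_eq_pow_iff_modEq, hoz] at h2
      simp only [f, dif_pos h]
      exact (ZMod.natCast_eq_natCast_iff _ _ _).mpr h2
    have hrep : ∀ g ∈ lcw G p, ∃ i : ℕ, z ^ i = g := fun g hg => by
      rw [← hgen, ← mem_powers_iff_mem_zpowers] at hg
      exact hg
    refine ⟨hzp, f, deg_of_fdiff (by omega) fun v hv a ha hav => ?_, ?_⟩
    · obtain ⟨i, rfl⟩ := hrep a ha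
      rcases Nat.lt_or_ge p v with hlt | hge
      · have : z ^ i = 1 := mem_bot.mp (S.lcw_eq_bot (i := v) (by omega) ▸ hav)
        exact deg_of_zero fun g _ => by simp [fdiff, this]
      · refine deg_const (by omega) (i : ZMod p) fun g hg => ?_
        obtain ⟨j, rfl⟩ := hrep g hg
        simp [fdiff, ← pow_add, hf]
    · have h1 := hf 1
      have h0 := hf 0
      rw [pow_one] at h1
      rw [pow_zero] at h0
      simp [h1, h0]
  have hchain : ∀ d i, 2 ≤ i → i + d = p → HasDetector (lcw G i) p z := by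
    intro d
    induction d with
    | zero => intro i _ hi; rw [show i = p by omega]; exact hbase
    | succ d ih =>
      intro i hi hid
      obtain ⟨s, hs, hs'⟩ :=
        SetLike.not_le_iff_exists.mp (S.lcw_not_le (i := i) (by omega) (by omega))
      have h := (ih (i + 1) (by omega) (by omega)).step hs' (hexp s) (by omega) hs le_rfl
      rwa [eq_of_between_prime (p := p) (le_sup_left : lcw G (i + 1) ≤ lcw G (i + 1) ⊔ zpowers s)
        (fun he => hs' (he.symm ▸ mem_sup_right (mem_zpowers s)))
        (sup_le (lcw_le (Nat.le_succ i)) (zpowers_le.mpr hs))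
        (by rw [S.card_lcw (by omega) (by omega), S.card_lcw (by omega) (by omega), ← pow_succ']
            congr 1; omega)] at h
  have hy2 : y ∉ lcw G 2 := fun h => hy (comm_mem_lcw (G := G) (by omega) le_rfl h (mem_top x))
  set K := lcw G 2 ⊔ zpowers y with hK
  have hKd : HasDetector K p z :=
    (hchain (p - 2) 2 le_rfl (by omega)).step hy2 (hexp y) le_rfl (mem_top y) le_rfl
  have hKn : K.Normal := ⟨fun k hk g => by
    rw [show g * k * g⁻¹ = ⁅g, k⁆ * k by simp [commutatorElement_def, mul_assoc]]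
    exact mul_mem (mem_sup_left (comm_mem_lcw (i := 1) le_rfl le_rfl (mem_top g) (mem_top k))) hk⟩
  have hxK : x ∉ K := by
    intro hxK
    refine hy ?_
    have hle : K ≤ centralizerMod y := sup_le (fun v hv =>
      comm_mem_lcw (G := G) (by omega) le_rfl hv (mem_top y))
      (zpowers_le.mpr (show ⁅y, y⁆ ∈ lcw G 3 by simp))
    rw [← commutatorElement_inv]
    exact inv_mem (hle hxK)
  have htop : K ⊔ zpowers x = ⊤ := by
    apply Subgroup.eq_top_of_le_card
    have h5 := le_relIndex_of_lt S.isP (H := K) (K := K ⊔ zpowers x)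
      fun h => hxK (h (mem_sup_right (mem_zpowers x)))
    have h6 := le_relIndex_of_lt S.isP (H := lcw G 2) (K := K)
      fun h => hy2 (h (mem_sup_right (mem_zpowers y)))
    rw [S.card, ← card_mul_relIndex (le_sup_left : K ≤ K ⊔ zpowers x),
      show p + 1 = p + 1 - 2 + 1 + 1 by omega, pow_succ, pow_succ]
    refine Nat.mul_le_mul ?_ h5
    rw [← card_mul_relIndex (le_sup_left : lcw G 2 ≤ K), S.card_two]
    exact Nat.mul_le_mul_left _ h6
  obtain ⟨-, f, hf, hfz⟩ := htop ▸ (hKd.step (N := K) hxK (hexp x) le_rfl (mem_top x) le_sup_left)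
  rw [engel_of_deg hp2 hexp hf x y, sub_self] at hfz
  exact zero_ne_one hfz

end Cfsg.Agent.H24
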