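import Cfsg.Agent.H24.MaxClassFusion
import Cfsg.Agent.H23.Alperin
import Cfsg.Agent.H44.TISylow
import Cfsg.Agent.H19.Cores
import Cfsg.Prelude.Def_CaseTheorems

/-!
A group with a Sylow `p`-subgroup of maximal class, trivial `p'`-core and no proper normal subgroup
of index prime to `p`: some element has centralizer of `p`-part `p ^ 2`, or the group is quasisimple.
-/

set_option linter.unusedSectionVars false

namespace Cfsg.Agent.H24

open Subgroup
open scoped commutatorElement Pointwise

variable {G : Type*} [Group G] [Finite G] {p : ℕ} [hp : Fact p.Prime] {n : ℕ}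

/-- A `p`-subgroup of a centralizer, moved into a given Sylow subgroup. -/
theorem exists_centralizer_conj (P : Sylow p G) {x : G} (hx : x ∈ (P : Subgroup G)) {k : ℕ}
    (hdvd : p ^ k ∣ Nat.card (centralizer ({x} : Set G))) :
    ∃ g : G, g * x * g⁻¹ ∈ (P : Subgroup G) ∧ ∃ T : Subgroup G, T ≤ (P : Subgroup G) ∧
      Nat.card T = p ^ k ∧ T ≤ centralizer ({g * x * g⁻¹} : Set G) := by
  obtain ⟨T₀, hT₀⟩ := Sylow.exists_subgroup_card_pow_prime (G := centralizer ({x} : Set G)) p hdvd
  set T := T₀.map (centralizer ({x} : Set G)).subtype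
  have hTc : Nat.card T = p ^ k := by
    rw [card_map_of_injective (subtype_injective _), hT₀]
  have hTle : T ≤ centralizer ({x} : Set G) := map_subtype_le _
  have hTp : IsPGroup p T := IsPGroup.of_card hTc
  have hxp : IsPGroup p (zpowers x) := P.isPGroup'.to_le (zpowers_le.mpr hx)
  have hsup : IsPGroup p (T ⊔ zpowers x : Subgroup G) := by
    refine hTp.to_sup_of_normal_right' hxp (hTle.trans ?_)
    intro u hu
    rw [mem_normalizer_iff]
    intro v
    have hu' : Commute u x := mem_centralizer_singleton_iff.mp hu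
    constructor
    · rintro ⟨j, rfl⟩
      refine ⟨j, ?_⟩
      show x ^ j = u * x ^ j * u⁻¹
      rw [(hu'.zpow_right j).eq, mul_inv_cancel_right]
    · rintro ⟨j, hj⟩
      refine ⟨j, ?_⟩
      have hj' : x ^ j = u * v * u⁻¹ := hj
      show x ^ j = v
      calc x ^ j = u⁻¹ * x ^ j * u := by
            rw [mul_assoc, ← (hu'.zpow_right j).eq, inv_mul_cancel_left]
        _ = v := by rw [hj']; group
  obtain ⟨Q, hQ⟩ := hsup.exists_le_sylow
  obtain ⟨g, hg⟩ := MulAction.exists_smul_eq G Q P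
  have hmem : ∀ u ∈ (Q : Subgroup G), g * u * g⁻¹ ∈ (P : Subgroup G) := fun u hu => by
    rw [← hg, Sylow.coe_subgroup_smul]
    exact Subgroup.mem_pointwise_smul_iff_inv_smul_mem.mpr (by simpa [MulAut.smul_def, mul_assoc] using hu)
  refine ⟨g, hmem x (hQ (mem_sup_right (mem_zpowers x))), T.map (MulAut.conj g).toMonoidHom,
    ?_, ?_, ?_⟩
  · rintro _ ⟨u, hu, rfl⟩
    exact hmem u (hQ (mem_sup_left hu))
  · rw [card_map_of_injective (MulAut.conj g).injective, hTc]
  · rintro _ ⟨u, hu, rfl⟩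
    refine mem_centralizer_singleton_iff.mpr ?_
    have hu' : u * x = x * u := mem_centralizer_singleton_iff.mp (hTle hu)
    show g * u * g⁻¹ * (g * x * g⁻¹) = g * x * g⁻¹ * (g * u * g⁻¹)
    simp only [mul_assoc, inv_mul_cancel_left]
    rw [← mul_assoc u x, hu', mul_assoc]

variable (P : Sylow p G) (S : MaxSetting ↥(P : Subgroup G) p n)
include S

theorem MaxSetting.factorization_three_le {x : ↥(P : Subgroup G)} (hx : Uniform n x)
    (hne : (Nat.card (centralizer ({(x : G)} : Set G))).factorization p ≠ 2) :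
    p ^ 3 ∣ Nat.card (centralizer ({(x : G)} : Set G)) := by
  have hP : p.Prime := hp.out
  have h2 : p ^ 2 ∣ Nat.card (centralizer ({(x : G)} : Set G)) := by
    rw [← S.card_centralizer_eq hx]
    have hle : (centralizer ({x} : Set ↥(P : Subgroup G))).map (P : Subgroup G).subtype ≤
        centralizer ({(x : G)} : Set G) := by
      rintro _ ⟨u, hu, rfl⟩
      exact mem_centralizer_singleton_iff.mpr
        (congrArg Subtype.val (mem_centralizer_singleton_iff.mp hu))
    exact (card_map_of_injective (P : Subgroup G).subtype_injective (H := _)) ▸ card_dvd_of_le hle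
  rw [hP.pow_dvd_iff_le_factorization Nat.card_pos.ne'] at h2 ⊢
  omega

/-- If no element has a small centralizer, a normal subgroup containing `lcw (max 2 (n - 2))` of
the Sylow subgroup contains all of it. -/
theorem MaxSetting.sylow_le_normal
    (hfail : ∀ x ∈ (P : Subgroup G), (Nat.card (centralizer ({x} : Set G))).factorization p ≠ 2)
    (N : Subgroup G) [N.Normal]
    (hN : lcw ↥(P : Subgroup G) (max 2 (n - 2)) ≤ N.subgroupOf (P : Subgroup G)) :
    (P : Subgroup G) ≤ N := by
  have hP : p.Prime := hp.out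
  by_contra hPN
  obtain ⟨x, hxN, hxu⟩ := S.exists_uniform_avoid (K := N.subgroupOf (P : Subgroup G))
    fun h => hPN (subgroupOf_eq_top.mp h)
  let R : Subgroup G → G → Prop := fun A g => ∀ u : ↥(P : Subgroup G), (u : G) ∈ A →
    Uniform n u → (u : G) ∉ N →
      ∃ hy : g⁻¹ * (u : G) * g ∈ (P : Subgroup G), Uniform n (⟨_, hy⟩ : ↥(P : Subgroup G)) ∧
        g⁻¹ * (u : G) * g ∉ N
  have hR : ∀ {A : Subgroup G} {g : G}, A ≤ (P : Subgroup G) →
      H23.rconj g A ≤ (P : Subgroup G) → R A g := by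
    intro A g hA hg
    refine H23.alperin_induction P R (fun A B g h hR u hu => hR u (h hu)) ?_ ?_ hA hg
    · intro A g h h1 h2 u hu hU hUN
      obtain ⟨hy, hyu, hyN⟩ := h1 u hu hU hUN
      obtain ⟨hz, hzu, hzN⟩ := h2 ⟨_, hy⟩ (H23.mem_rconj.mpr (by
        show g * (g⁻¹ * (u : G) * g) * g⁻¹ ∈ A
        simpa [mul_assoc] using hu)) hyu hyN
      have e : (g * h)⁻¹ * (u : G) * (g * h) = h⁻¹ * (g⁻¹ * (u : G) * g) * h := by group
      refine ⟨e ▸ hz, ?_, e ▸ hzN⟩
      convert hzu using 1
      exact Subtype.ext e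
    · intro Q m hm _ _ u hu hU hUN
      set E := (P : Subgroup G) ⊓ (Q : Subgroup G)
      have hiff := mem_normalizer_iff.mp hm
      have hout : ∀ v ∈ E, m⁻¹ * v * m ∈ E := fun v hv =>
        (hiff _).mpr (by simpa [mul_assoc] using hv)
      have hin : ∀ v ∈ E, m * v * m⁻¹ ∈ E := fun v hv => (hiff v).mp hv
      let E' : Subgroup ↥(P : Subgroup G) := E.subgroupOf (P : Subgroup G)
      let φ : E' ≃* E' :=
        { toFun := fun v => ⟨⟨m⁻¹ * ((v : ↥(P : Subgroup G)) : G) * m,
            (Subgroup.mem_inf.mp (hout _ v.2)).1⟩, hout _ v.2⟩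
          invFun := fun v => ⟨⟨m * ((v : ↥(P : Subgroup G)) : G) * m⁻¹,
            (Subgroup.mem_inf.mp (hin _ v.2)).1⟩, hin _ v.2⟩
          left_inv := fun v => Subtype.ext (Subtype.ext (by simp [mul_assoc]))
          right_inv := fun v => Subtype.ext (Subtype.ext (by simp [mul_assoc]))
          map_mul' := fun v w => Subtype.ext (Subtype.ext (by simp [mul_assoc])) }
      obtain ⟨h1, h2⟩ := S.uniform_preserved hU (E := E') (P₁ := N.subgroupOf (P : Subgroup G))
        hu hUN hN φ fun v => by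
          show m⁻¹ * ((v : ↥(P : Subgroup G)) : G) * m ∈ N ↔ ((v : ↥(P : Subgroup G)) : G) ∈ N
          constructor
          · intro h
            have := (inferInstance : N.Normal).conj_mem _ h m
            simpa [mul_assoc] using this
          · intro h
            have := (inferInstance : N.Normal).conj_mem _ h m⁻¹
            simpa [mul_assoc] using this
      exact ⟨(Subgroup.mem_inf.mp (hout _ hu)).1, h2, h1⟩
  obtain ⟨g, hy, T, hTP, hTc, hTC⟩ :=
    exists_centralizer_conj P x.2 (S.factorization_three_le P hxu (hfail _ x.2))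
  obtain ⟨hy', hyu, -⟩ := hR (A := zpowers (x : G)) (g := g⁻¹) (zpowers_le.mpr x.2) (fun v hv => by
    rw [H23.mem_rconj] at hv
    obtain ⟨j, hj⟩ := hv
    have hj' : (x : G) ^ j = g⁻¹ * v * g := by simpa [mul_assoc] using hj
    have h := zpow_mem hy j
    rw [conj_zpow, hj'] at h
    simpa [mul_assoc] using h) x (mem_zpowers _) hxu hxN
  have h1 : Nat.card (T.subgroupOf (P : Subgroup G)) = p ^ 3 :=
    (Nat.card_congr (subgroupOfEquivOfLe hTP).toEquiv).trans hTc
  have h2 : T.subgroupOf (P : Subgroup G) ≤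
      centralizer ({(⟨_, hy'⟩ : ↥(P : Subgroup G))} : Set ↥(P : Subgroup G)) := fun u hu => by
    refine mem_centralizer_singleton_iff.mpr (Subtype.ext ?_)
    simpa [mul_assoc] using mem_centralizer_singleton_iff.mp (hTC hu)
  have h3 := (Subgroup.card_le_of_le h2).trans (S.card_centralizer_eq hyu).le
  rw [h1, Nat.pow_le_pow_iff_right hP.one_lt] at h3
  omega

/-- A normal subgroup of the Sylow subgroup not containing `lcw (max 2 (n - 2))` is trivial or the
centre. -/
theorem MaxSetting.normal_eq_last {J : Subgroup ↥(P : Subgroup G)} [J.Normal] (hJ : J ≠ ⊥)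
    (hm : ¬ lcw ↥(P : Subgroup G) (max 2 (n - 2)) ≤ J) :
    J = lcw ↥(P : Subgroup G) (n - 1) ∧ 4 ≤ n := by
  have h3 := S.three
  obtain ⟨x, -, hx⟩ := S.exists_uniform_avoid (K := (⊥ : Subgroup ↥(P : Subgroup G))) (by
    intro h
    have h1 := congrArg (fun K : Subgroup ↥(P : Subgroup G) => Nat.card K) h
    simp only [card_bot, card_top, S.card] at h1
    exact absurd h1 (Nat.one_lt_pow (by omega) hp.out.one_lt).ne)
  by_cases hle : J ≤ lcw ↥(P : Subgroup G) 2
  · obtain ⟨i, hi, hin, rfl⟩ := S.eq_lcw_of_invariant hx hle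
      fun u hu => (inferInstance : J.Normal).conj_mem u hu x
    have hi1 : ¬ i ≤ max 2 (n - 2) := fun h => hm (lcw_le h)
    have hi2 : i ≠ n := fun h => hJ (by rw [h, S.lcw_top_eq])
    have hi3 : max 2 (n - 2) < i := not_le.mp hi1
    obtain ⟨hi4, hi5⟩ := max_lt_iff.mp hi3
    exact ⟨by rw [show i = n - 1 by omega], by omega⟩
  exfalso
  obtain ⟨u, hu, hu'⟩ := SetLike.not_le_iff_exists.mp hle
  obtain ⟨e, he⟩ := S.exists_comm_not_mem hu'
  obtain ⟨i, hi, hin, hie⟩ := S.eq_lcw_of_invariant hx (J := J ⊓ lcw ↥(P : Subgroup G) 2)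
    inf_le_right fun v hv => (inferInstance : (J ⊓ lcw ↥(P : Subgroup G) 2).Normal).conj_mem v hv x
  have hc : ⁅e, u⁆ ∈ J ⊓ lcw ↥(P : Subgroup G) 2 := by
    refine Subgroup.mem_inf.mpr ⟨?_, comm_mem_lcw (i := 1) le_rfl le_rfl (mem_top e) (mem_top u)⟩
    rw [commutatorElement_def]
    exact mul_mem ((inferInstance : J.Normal).conj_mem u hu e) (inv_mem hu)
  rw [hie] at hc
  have hi2 : i = 2 := by
    by_contra hne
    exact he (lcw_le (by omega) hc)
  subst hi2
  exact hm ((lcw_le (le_max_left 2 (n - 2))).trans (hie.ge.trans inf_le_left))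

/-- A normal subgroup meeting the Sylow subgroup in its centre has order `p`. -/
theorem MaxSetting.card_normal_eq_prime (hcore : Cfsg.pPrimeCore p G = ⊥) (h4 : 4 ≤ n)
    (N : Subgroup G) [N.Normal]
    (hN : N.subgroupOf (P : Subgroup G) = lcw ↥(P : Subgroup G) (n - 1)) :
    N = (lcw ↥(P : Subgroup G) (n - 1)).map (P : Subgroup G).subtype := by
  have hP : p.Prime := hp.out
  set Z₀ := (lcw ↥(P : Subgroup G) (n - 1)).map (P : Subgroup G).subtype with hZ₀
  have hmemZ : ∀ v, v ∈ (P : Subgroup G) → v ∈ N → v ∈ Z₀ := fun v h1 h2 =>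
    ⟨⟨v, h1⟩, hN ▸ h2, rfl⟩
  have hZN : Z₀ ≤ N := by
    rintro _ ⟨v, hv, rfl⟩
    rw [← hN] at hv
    exact hv
  have hZP : Z₀ ≤ (P : Subgroup G) := map_subtype_le _
  have hZcen : ∀ z ∈ Z₀, ∀ a ∈ (P : Subgroup G), z * a = a * z := by
    rintro _ ⟨v, hv, rfl⟩ a ha
    have := comm_mem_lcw (G := ↥(P : Subgroup G)) (by omega) le_rfl hv
      (lcw_one (G := ↥(P : Subgroup G)) ▸ mem_top (⟨a, ha⟩ : ↥(P : Subgroup G)))
    rw [show n - 1 + 1 = n by omega, S.lcw_top_eq, mem_bot] at this
    exact congrArg Subtype.val (commutatorElement_eq_one_iff_mul_comm.mp this)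
  -- elements of `N` normalizing `Z₀` centralize it
  have hcent : ∀ h ∈ N, h ∈ normalizer (Z₀ : Set G) → h ∈ centralizer (Z₀ : Set G) := by
    intro h hh hhn
    set M := N ⊓ centralizer (Z₀ : Set G)
    set X := (P : Subgroup G) ⊔ M
    have hconjZ : ∀ {u : G}, u ∈ normalizer (Z₀ : Set G) → ∀ v ∈ centralizer (Z₀ : Set G),
        u * v * u⁻¹ ∈ centralizer (Z₀ : Set G) := by
      intro u hu v hv
      refine mem_centralizer_iff.mpr fun z hz => ?_
      have h1 : u⁻¹ * z * u ∈ Z₀ := by
        have h0 := (mem_normalizer_iff.mp (inv_mem hu) z).mp hz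
        simpa using h0
      have h2 := mem_centralizer_iff.mp hv _ h1
      calc z * (u * v * u⁻¹) = u * ((u⁻¹ * z * u) * v) * u⁻¹ := by group
        _ = u * (v * (u⁻¹ * z * u)) * u⁻¹ := by rw [h2]
        _ = u * v * u⁻¹ * z := by group
    have hPn : ∀ a ∈ (P : Subgroup G), a ∈ centralizer (Z₀ : Set G) := fun a ha =>
      mem_centralizer_iff.mpr fun z hz => hZcen z hz a ha
    have hXh : X.map (MulAut.conj h).toMonoidHom ≤ X := by
      rw [Subgroup.map_le_iff_le_comap, sup_le_iff]
      constructor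
      · intro a ha
        show h * a * h⁻¹ ∈ X
        rw [show h * a * h⁻¹ = ⁅h, a⁆ * a by simp [commutatorElement_def, mul_assoc]]
        refine mul_mem (mem_sup_right (Subgroup.mem_inf.mpr ⟨?_, ?_⟩)) (mem_sup_left ha)
        · rw [show ⁅h, a⁆ = h * (a * h⁻¹ * a⁻¹) by simp [commutatorElement_def, mul_assoc]]
          exact mul_mem hh ((inferInstance : N.Normal).conj_mem _ (inv_mem hh) a)
        · rw [commutatorElement_def]
          exact mul_mem (hconjZ hhn a (hPn a ha)) (inv_mem (hPn a ha))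
      · intro v hv
        obtain ⟨hvN, hvC⟩ := Subgroup.mem_inf.mp hv
        exact mem_sup_right (Subgroup.mem_inf.mpr
          ⟨(inferInstance : N.Normal).conj_mem v hvN h, hconjZ hhn v hvC⟩)
    have hXC : X ≤ centralizer (Z₀ : Set G) := sup_le hPn inf_le_right
    have hPX : (P : Subgroup G) ≤ X := le_sup_left
    have hPX' : ((h • P : Sylow p G) : Subgroup G) ≤ X := by
      rw [Sylow.coe_subgroup_smul, Subgroup.pointwise_smul_def]
      exact (map_mono hPX).trans hXh
    obtain ⟨c, hc⟩ := MulAction.exists_smul_eq X (P.subtype hPX) ((h • P).subtype hPX')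
    have hceq : (c : G) • P = h • P := by
      simp_rw [Sylow.smul_subtype, Subgroup.smul_def] at hc
      exact Sylow.subtype_injective hc
    -- `c = c₀ * m` with `m ∈ N`
    have hXN : X ≤ (P : Subgroup G) ⊔ N := sup_le_sup_left inf_le_left _
    obtain ⟨c₀, hc₀, m, hm, hcm⟩ := mem_sup_of_normal_right.mp (hXN c.2)
    set k := c₀ * (c : G)⁻¹ * h with hk
    have hkN : k ∈ N := by
      rw [hk, ← hcm, show c₀ * (c₀ * m)⁻¹ * h = c₀ * m⁻¹ * c₀⁻¹ * h by group]
      exact mul_mem ((inferInstance : N.Normal).conj_mem _ (inv_mem hm) c₀) hh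
    have hkP : k • P = P := by
      rw [hk, mul_smul, mul_smul, ← hceq, inv_smul_smul]
      exact Sylow.smul_eq_iff_mem_normalizer.mpr (le_normalizer hc₀)
    have hka : ∀ a ∈ (P : Subgroup G), k * a * k⁻¹ ∈ (P : Subgroup G) := fun a ha =>
      (mem_normalizer_iff.mp (Sylow.smul_eq_iff_mem_normalizer.mp hkP) a).mp ha
    have hact : ∀ a ∈ (P : Subgroup G), k * a * k⁻¹ * a⁻¹ ∈ Z₀ := fun a ha =>
      hmemZ _ (mul_mem (hka a ha) (inv_mem ha)) (by
        rw [show k * a * k⁻¹ * a⁻¹ = k * (a * k⁻¹ * a⁻¹) by group]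
        exact mul_mem hkN ((inferInstance : N.Normal).conj_mem _ (inv_mem hkN) a))
    -- a generator of `Z₀` as a commutator
    obtain ⟨x, -, hx⟩ := S.exists_uniform_avoid (K := (⊥ : Subgroup ↥(P : Subgroup G))) (by
      intro h
      have h1 := congrArg (fun K : Subgroup ↥(P : Subgroup G) => Nat.card K) h
      simp only [card_bot, card_top, S.card] at h1
      exact absurd h1 (Nat.one_lt_pow (by omega) hP.one_lt).ne)
    obtain ⟨e, he, he'⟩ :=
      SetLike.not_le_iff_exists.mp (S.lcw_not_le (i := n - 2) (by omega) (by omega))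
    have hz1 : ⁅e, x⁆ ∈ lcw ↥(P : Subgroup G) (n - 1) := by
      have := comm_mem_lcw (G := ↥(P : Subgroup G)) (by omega) le_rfl he
        (lcw_one (G := ↥(P : Subgroup G)) ▸ mem_top x)
      rwa [show n - 2 + 1 = n - 1 by omega] at this
    have hz2 : ⁅e, x⁆ ≠ 1 := by
      have := S.comm_exact hx (i := n - 2) (by omega) (by omega) he he'
      rwa [show n - 2 + 2 = n by omega, S.lcw_top_eq, mem_bot] at this
    have hgen : zpowers (⁅e, x⁆) = lcw ↥(P : Subgroup G) (n - 1) :=
      zpowers_eq_of_card_prime (p := p) (by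
        rw [S.card_lcw (by omega) (by omega), show n - (n - 1) = 1 by omega, pow_one]) hz1 hz2
    have hkz : k * ⁅(e : G), (x : G)⁆ * k⁻¹ = ⁅(e : G), (x : G)⁆ := by
      obtain ⟨z1, hz1', hz1e⟩ : ∃ z ∈ Z₀, k * (e : G) * k⁻¹ = z * e :=
        ⟨_, hact _ e.2, by group⟩
      obtain ⟨z2, hz2', hz2e⟩ : ∃ z ∈ Z₀, k * (x : G) * k⁻¹ = z * x :=
        ⟨_, hact _ x.2, by group⟩
      rw [show k * ⁅(e : G), (x : G)⁆ * k⁻¹ = ⁅k * (e : G) * k⁻¹, k * (x : G) * k⁻¹⁆ by
        simp [commutatorElement_def, mul_assoc], hz1e, hz2e]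
      have c1 : Commute z1 (e : G) := hZcen z1 hz1' e e.2
      have c2 : Commute z1 (x : G) := hZcen z1 hz1' x x.2
      have c3 : Commute z2 (e : G) := hZcen z2 hz2' e e.2
      have c4 : Commute z2 (x : G) := hZcen z2 hz2' x x.2
      have c5 : Commute z1 z2 := hZcen z1 hz1' z2 (hZP hz2')
      have c6 : Commute z1 ⁅(e : G), (x : G)⁆ := hZcen z1 hz1' _ (⁅e, x⁆).2
      have c7 : Commute z2 ⁅(e : G), (x : G)⁆ := hZcen z2 hz2' _ (⁅e, x⁆).2
      calc ⁅z1 * (e : G), z2 * (x : G)⁆
          = z1 * ⁅(e : G), z2 * (x : G)⁆ * z1⁻¹ * ⁅z1, z2 * (x : G)⁆ := by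
            simp [commutatorElement_def, mul_assoc]
        _ = z1 * (⁅(e : G), z2⁆ * (z2 * ⁅(e : G), (x : G)⁆ * z2⁻¹)) * z1⁻¹ * ⁅z1, z2 * (x : G)⁆ := by
            simp [commutatorElement_def, mul_assoc]
        _ = ⁅(e : G), (x : G)⁆ := by
            rw [commutatorElement_eq_one_iff_commute.mpr c3.symm,
              commutatorElement_eq_one_iff_commute.mpr (c5.mul_right c2), one_mul, mul_one,
              c7.eq, mul_inv_cancel_right, c6.eq, mul_inv_cancel_right]
    have hkc : k ∈ centralizer (Z₀ : Set G) := by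
      refine mem_centralizer_iff.mpr ?_
      rintro _ ⟨v, hv, rfl⟩
      rw [SetLike.mem_coe, ← hgen] at hv
      obtain ⟨j, rfl⟩ := hv
      have hkz' : Commute k ⁅(e : G), (x : G)⁆ := mul_inv_eq_iff_eq_mul.mp hkz
      exact ((hkz'.zpow_right j).eq).symm
    have hcc : h = ((c : G) * c₀⁻¹) * k := by rw [hk]; group
    rw [hcc]
    exact mul_mem (mul_mem (hXC c.2) (inv_mem (hPn _ hc₀))) hkc
  -- Burnside
  obtain ⟨Q, hQ⟩ := H44.exists_sylow_eq_subgroupOf P N
  have hQmem : ∀ v : N, v ∈ (Q : Subgroup N) ↔ (v : G) ∈ Z₀ := fun v => by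
    rw [hQ, mem_subgroupOf]
    exact ⟨fun h => hmemZ _ h v.2, fun h => hZP h⟩
  have hnc : normalizer ((Q : Subgroup N) : Set N) ≤ centralizer ((Q : Subgroup N) : Set N) := by
    intro h hh
    have hh' : (h : G) ∈ normalizer (Z₀ : Set G) := by
      rw [mem_normalizer_iff]
      intro v
      constructor
      · intro hv
        exact (hQmem (h * ⟨v, hZN hv⟩ * h⁻¹)).mp ((mem_normalizer_iff.mp hh ⟨v, hZN hv⟩).mp
          ((hQmem _).mpr hv))
      · intro hv
        have hvN : v ∈ N := by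
          simpa [mul_assoc] using (inferInstance : N.Normal).conj_mem _ (hZN hv) (h : G)⁻¹
        exact (hQmem ⟨v, hvN⟩).mp ((mem_normalizer_iff.mp hh ⟨v, hvN⟩).mpr ((hQmem _).mpr hv))
    refine mem_centralizer_iff.mpr fun v hv => Subtype.ext ?_
    exact mem_centralizer_iff.mp (hcent _ h.2 hh') _ ((hQmem v).mp hv)
  set K := (MonoidHom.transferSylow Q hnc).ker
  have hK : K = ⊥ := by
    have hcop : (Nat.card K).Coprime p :=
      Nat.Coprime.symm (hP.coprime_iff_not_dvd.mpr (MonoidHom.not_dvd_card_ker_transferSylow Q hnc))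
    have h1 : K ≤ Cfsg.pPrimeCore p N := le_sSup ⟨inferInstance, hcop⟩
    have := H19.pPrimeCore_characteristic (G := N) (p := p)
    have h2 : (Cfsg.pPrimeCore p N).map N.subtype ≤ Cfsg.pPrimeCore p G := by
      refine le_sSup ⟨inferInstance, ?_⟩
      rw [card_map_of_injective N.subtype_injective]
      exact H19.pPrimeCore_coprime p
    rw [hcore, le_bot_iff, map_eq_bot_iff_of_injective _ N.subtype_injective] at h2
    exact le_bot_iff.mp (h2 ▸ h1)
  have hQtop : (Q : Subgroup N) = ⊤ := by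
    have := MonoidHom.ker_transferSylow_isComplement' Q hnc
    rw [show (MonoidHom.transferSylow Q hnc).ker = ⊥ from hK] at this
    exact isComplement'_bot_left.mp this
  exact le_antisymm (fun v hv => (hQmem ⟨v, hv⟩).mp (hQtop ▸ mem_top _)) hZN

theorem MaxSetting.dichotomy (hcore : Cfsg.pPrimeCore p G = ⊥)
    (hres : ∀ N : Subgroup G, N.Normal → (N.index).Coprime p → N = ⊤)
    (hfail : ∀ x ∈ (P : Subgroup G), (Nat.card (centralizer ({x} : Set G))).factorization p ≠ 2) :
    Cfsg.IsQuasisimple G ∧ Nat.card (center G) ≤ p := by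
  have hP : p.Prime := hp.out
  have h3 := S.three
  set L := lcw ↥(P : Subgroup G) (n - 1)
  set Z₀ := L.map (P : Subgroup G).subtype
  have hclass : ∀ N : Subgroup G, N.Normal → N = ⊥ ∨ N = ⊤ ∨ (N = Z₀ ∧ 4 ≤ n) := by
    intro N hN
    by_cases hm : lcw ↥(P : Subgroup G) (max 2 (n - 2)) ≤ N.subgroupOf (P : Subgroup G)
    · refine .inr (.inl (hres N hN (Nat.Coprime.symm (hP.coprime_iff_not_dvd.mpr fun h => ?_))))
      exact P.not_dvd_index (h.trans (index_dvd_of_le (S.sylow_le_normal P hfail N hm)))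
    by_cases hbot : N.subgroupOf (P : Subgroup G) = ⊥
    · left
      obtain ⟨Q, hQ⟩ := H44.exists_sylow_eq_subgroupOf P N
      have hQbot : (Q : Subgroup N) = ⊥ := by
        rw [hQ, eq_bot_iff]
        intro v hv
        have : (⟨(v : G), hv⟩ : ↥(P : Subgroup G)) ∈ N.subgroupOf (P : Subgroup G) := v.2
        rw [hbot, mem_bot] at this
        exact mem_bot.mpr (Subtype.ext ((Subtype.ext_iff.mp this : (v : G) = 1)))
      have h1 : ¬ p ∣ Nat.card N := by
        have := Q.not_dvd_index
        rwa [hQbot, index_bot] at this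
      rw [eq_bot_iff, ← hcore]
      exact le_sSup ⟨hN, Nat.Coprime.symm (hP.coprime_iff_not_dvd.mpr h1)⟩
    · obtain ⟨he, h4⟩ := S.normal_eq_last P (J := N.subgroupOf (P : Subgroup G)) hbot hm
      exact .inr (.inr ⟨S.card_normal_eq_prime P hcore h4 N he, h4⟩)
  have hnab : ∃ a ∈ (P : Subgroup G), ∃ b ∈ (P : Subgroup G), a * b ≠ b * a := by
    by_contra hcon
    push Not at hcon
    refine S.lcw_not_le (i := 2) (by omega) (by omega) fun u hu => ?_
    have h1 : lcw ↥(P : Subgroup G) 2 ≤ ⊥ := by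
      rw [lcw_two, _root_.commutator_def, commutator_le]
      intro a _ b _
      exact mem_bot.mpr (commutatorElement_eq_one_iff_mul_comm.mpr
        (Subtype.ext (hcon a a.2 b b.2)))
    rw [mem_bot.mp (h1 hu)]
    exact one_mem _
  obtain ⟨a₀, ha₀, b₀, hb₀, hab⟩ := hnab
  have hcen_top : center G ≠ ⊤ := fun h => hab (mem_center_iff.mp (h ▸ mem_top b₀) a₀)
  have hcentral : Z₀.Normal → Z₀ ≤ center G := by
    intro hn
    have h1 := hres (centralizer (Z₀ : Set G)) inferInstance
      (Nat.Coprime.symm (hP.coprime_iff_not_dvd.mpr fun h => P.not_dvd_index (h.trans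
        (index_dvd_of_le fun a ha => mem_centralizer_iff.mpr ?_))))
    · exact fun z hz => mem_center_iff.mpr fun g =>
        (mem_centralizer_iff.mp (h1 ▸ mem_top g) z hz).symm
    rintro _ ⟨v, hv, rfl⟩
    have := comm_mem_lcw (G := ↥(P : Subgroup G)) (by omega) le_rfl hv
      (lcw_one (G := ↥(P : Subgroup G)) ▸ mem_top (⟨a, ha⟩ : ↥(P : Subgroup G)))
    rw [show n - 1 + 1 = n by omega, S.lcw_top_eq, mem_bot] at this
    exact congrArg Subtype.val (commutatorElement_eq_one_iff_mul_comm.mp this)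
  have hcard : Nat.card Z₀ = p := by
    rw [card_map_of_injective (P : Subgroup G).subtype_injective,
      S.card_lcw (by omega) (by omega), show n - (n - 1) = 1 by omega, pow_one]
  refine ⟨⟨⟨?_⟩, ?_⟩, ?_⟩
  · rcases hclass (commutator G) inferInstance with h | h | ⟨h, h4⟩
    · refine absurd ?_ hab
      refine commutatorElement_eq_one_iff_mul_comm.mp (mem_bot.mp (h ▸ ?_))
      rw [_root_.commutator_def]
      exact commutator_mem_commutator (mem_top a₀) (mem_top b₀)
    · exact h
    · exfalso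
      have hn : Z₀.Normal := h ▸ inferInstance
      refine S.lcw_not_le (i := 3) (by omega) (by omega) ?_
      have hle : lcw ↥(P : Subgroup G) 3 ≤ ⊥ := by
        rw [show (3 : ℕ) = 2 + 1 from rfl, lcw_succ (by omega), commutator_le]
        intro u hu v _
        refine mem_bot.mpr (Subtype.ext ?_)
        have hu' : (u : G) ∈ center G := by
          refine hcentral hn (h ▸ ?_)
          have h1 := mem_map_of_mem (P : Subgroup G).subtype hu
          rw [lcw_two, _root_.commutator_def, map_commutator] at h1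
          exact (_root_.commutator_def G).symm ▸ commutator_mono le_top le_top h1
        show ⁅(u : G), (v : G)⁆ = 1
        exact commutatorElement_eq_one_iff_mul_comm.mpr (mem_center_iff.mp hu' v).symm
      exact hle.trans bot_le
  · have hnt : Nontrivial (G ⧸ center G) := by
      obtain ⟨g, -, hg⟩ := SetLike.exists_of_lt (lt_top_iff_ne_top.mpr hcen_top)
      exact ⟨⟨(g : G ⧸ center G), 1, fun h => hg ((QuotientGroup.eq_one_iff g).mp h)⟩⟩
    refine ⟨fun M hM => ?_⟩
    set π := QuotientGroup.mk' (center G)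
    have hπ : Function.Surjective π := QuotientGroup.mk'_surjective _
    have hle : center G ≤ M.comap π := fun g hg => by
      rw [mem_comap, QuotientGroup.mk'_apply, (QuotientGroup.eq_one_iff g).mpr hg]
      exact one_mem _
    rcases hclass (M.comap π) inferInstance with h | h | ⟨h, -⟩
    · left
      rw [← map_comap_eq_self_of_surjective hπ M, h, Subgroup.map_bot]
    · right
      rw [← map_comap_eq_self_of_surjective hπ M, h, map_top_of_surjective π hπ]
    · left
      rw [← map_comap_eq_self_of_surjective hπ M, h, eq_bot_iff]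
      rintro _ ⟨z, hz, rfl⟩
      exact mem_bot.mpr ((QuotientGroup.eq_one_iff z).mpr
        (hcentral (h ▸ inferInstance) hz))
  · rcases hclass (center G) inferInstance with h | h | ⟨h, -⟩
    · rw [h, card_bot]; exact hP.one_le
    · exact absurd h hcen_top
    · rw [h, hcard]

end Cfsg.Agent.H24
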