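import Cfsg.Agent.H24.MaxClassDegree
import Cfsg.Agent.H24.ExponentPrime

/-!
In a `p`-group of maximal class, the `p`-th powers of the elements of a subgroup generate a subgroup
of index at most `p ^ p` in it.
-/

set_option linter.unusedSectionVars false

namespace Cfsg.Agent.H24

open Subgroup
open scoped commutatorElement

variable {G : Type*} [Group G] [Finite G] {p : ℕ} [hp : Fact p.Prime] {n : ℕ}
  (S : MaxSetting G p n)
include S

theorem MaxSetting.card_inf_lcw_le (h4 : 4 ≤ n) {x : G}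
    (hCx : Nat.card (centralizer ({x} : Set G)) ≤ p ^ 2) {H P : Subgroup G}
    (hpow : ∀ g ∈ H, g ^ p ∈ P) : ∀ i, 2 ≤ i →
      Nat.card (H ⊓ lcw G i : Subgroup G) ≤
        p ^ (p - 1) * Nat.card (P ⊓ lcw G (i + (p - 1)) : Subgroup G) := by
  have hP : p.Prime := hp.out
  intro i
  induction hd : n - i generalizing i with
  | zero =>
    intro _
    have : H ⊓ lcw G i = ⊥ := le_bot_iff.mp
      (inf_le_right.trans (le_of_le_of_eq (lcw_le (by omega)) S.lcw_top_eq))
    rw [this, card_bot]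
    exact Nat.one_le_iff_ne_zero.mpr (mul_ne_zero (pow_ne_zero _ hP.ne_zero) Nat.card_pos.ne')
  | succ d ih =>
    intro hi
    rcases Nat.lt_or_ge (i + (p - 1)) n with hlt | hge
    swap
    · calc Nat.card (H ⊓ lcw G i : Subgroup G) ≤ Nat.card (lcw G i) :=
            Subgroup.card_le_of_le inf_le_right
        _ = p ^ (n - i) := S.card_lcw hi (by omega)
        _ ≤ p ^ (p - 1) * 1 := by
            rw [mul_one]; exact Nat.pow_le_pow_right hP.pos (by omega)
        _ ≤ _ := Nat.mul_le_mul_left _ Nat.card_pos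
    have ih' := ih (i + 1) (by omega) (by omega)
    have hle : H ⊓ lcw G (i + 1) ≤ H ⊓ lcw G i := inf_le_inf_left H (lcw_le (Nat.le_succ i))
    have hstep : Nat.card (H ⊓ lcw G i : Subgroup G) ≤
        p * Nat.card (H ⊓ lcw G (i + 1) : Subgroup G) := by
      rw [← card_mul_relIndex hle, mul_comm p]
      refine Nat.mul_le_mul_left _ ?_
      have h2 : (H ⊓ lcw G (i + 1)).relIndex (H ⊓ lcw G i) =
          (lcw G (i + 1)).relIndex (H ⊓ lcw G i) := by
        rw [← inf_relIndex_right (lcw G (i + 1)) (H ⊓ lcw G i)]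
        congr 1
        exact le_antisymm (le_inf inf_le_right hle) (le_inf (inf_le_right.trans inf_le_left) inf_le_left)
      rw [h2, ← S.relIndex_lcw hi (by omega)]
      exact relIndex_le_of_le_right inf_le_right FiniteIndex.index_ne_zero
    by_cases hex : H ⊓ lcw G i ≤ lcw G (i + 1)
    · have : H ⊓ lcw G i ≤ H ⊓ lcw G (i + 1) := le_inf inf_le_left hex
      refine (Subgroup.card_le_of_le this).trans (ih'.trans (Nat.mul_le_mul_left _ ?_))
      exact Subgroup.card_le_of_le (inf_le_inf_left P (lcw_le (by omega)))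
    · obtain ⟨g, hg, hg'⟩ := SetLike.not_le_iff_exists.mp hex
      obtain ⟨hgH, hgi⟩ := Subgroup.mem_inf.mp hg
      obtain ⟨h1, h2⟩ := S.pow_weight h4 hCx hi hlt hgi hg'
      have h3 : p * Nat.card (P ⊓ lcw G (i + 1 + (p - 1)) : Subgroup G) ≤
          Nat.card (P ⊓ lcw G (i + (p - 1)) : Subgroup G) := by
        have hle : P ⊓ lcw G (i + 1 + (p - 1)) ≤ P ⊓ lcw G (i + (p - 1)) :=
          inf_le_inf_left P (lcw_le (by omega))
        rw [← card_mul_relIndex hle, mul_comm p]
        refine Nat.mul_le_mul_left _ (le_relIndex_of_lt S.isP fun hh => h2 ?_)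
        have := (Subgroup.mem_inf.mp (hh (Subgroup.mem_inf.mpr ⟨hpow g hgH, h1⟩))).2
        rwa [show i + 1 + (p - 1) = i + (p - 1) + 1 by omega] at this
      calc Nat.card (H ⊓ lcw G i : Subgroup G) ≤ p * Nat.card (H ⊓ lcw G (i + 1) : Subgroup G) :=
            hstep
        _ ≤ p * (p ^ (p - 1) * Nat.card (P ⊓ lcw G (i + 1 + (p - 1)) : Subgroup G)) :=
            Nat.mul_le_mul_left _ ih'
        _ = p ^ (p - 1) * (p * Nat.card (P ⊓ lcw G (i + 1 + (p - 1)) : Subgroup G)) := by ring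
        _ ≤ _ := Nat.mul_le_mul_left _ h3

/-- A `p`-th power lies outside `lcw (p + 1)`. -/
theorem MaxSetting.exists_pow_not_mem (hp2 : p ≠ 2) (hn : p + 1 ≤ n) :
    ∃ g : G, g ^ p ∉ lcw G (p + 1) := by
  have T := S.quotient (m := p + 1) (by have := hp.out.two_le; omega) hn
  obtain ⟨g, hg⟩ := T.exists_pow_ne_one hp2
  obtain ⟨g, rfl⟩ := QuotientGroup.mk'_surjective (lcw G (p + 1)) g
  exact ⟨g, fun h => hg (by rw [← map_pow]; exact (QuotientGroup.eq_one_iff _).mpr h)⟩

theorem MaxSetting.relIndex_powers_le (hp2 : p ≠ 2) (H : Subgroup G) :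
    (closure {y : G | ∃ h ∈ H, y = h ^ p}).relIndex H ≤ p ^ p := by
  have hP : p.Prime := hp.out
  set P := closure {y : G | ∃ h ∈ H, y = h ^ p}
  have hpow : ∀ g ∈ H, g ^ p ∈ P := fun g hg => subset_closure ⟨g, hg, rfl⟩
  have hPH : P ≤ H := (closure_le _).mpr fun y ⟨h, hh, e⟩ => e ▸ pow_mem hh p
  have hidx : P.relIndex H * Nat.card P = Nat.card H := by
    rw [mul_comm, card_mul_relIndex hPH]
  rcases Nat.lt_or_ge p n with hn | hn
  swap
  · refine (Nat.le_mul_of_pos_right _ (Nat.card_pos (α := P))).trans (hidx ▸ ?_)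
    calc Nat.card H ≤ Nat.card G := Subgroup.card_le_card_group H
      _ = p ^ n := S.card
      _ ≤ p ^ p := Nat.pow_le_pow_right hP.pos hn
  have h4 : 4 ≤ n := by have := hP.two_le; omega
  obtain ⟨x, -, -, hCx⟩ := S.exists_small hp2
  have hcount := S.card_inf_lcw_le h4 hCx hpow 2 le_rfl
  rw [show 2 + (p - 1) = p + 1 by have := hP.two_le; omega] at hcount
  suffices Nat.card H ≤ p ^ p * Nat.card P from
    Nat.le_of_mul_le_mul_right (hidx ▸ this) Nat.card_pos
  have hsucc : p ^ p = p * p ^ (p - 1) := by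
    rw [← pow_succ', Nat.sub_add_cancel hP.one_le]
  by_cases hfull : H ⊔ lcw G 2 = ⊤
  · have := S.isP.isNilpotent
    have hHtop : H = ⊤ := by
      refine frattini_nongenerating (eq_top_iff.mpr (hfull.ge.trans (sup_le_sup_left ?_ H)))
      rw [lcw_two]
      exact commutator_le_frattini S.isP
    obtain ⟨g, hg⟩ := S.exists_pow_not_mem hp2 hn
    have hextra : p * Nat.card (P ⊓ lcw G (p + 1) : Subgroup G) ≤ Nat.card P := by
      rw [← card_mul_relIndex (inf_le_left : P ⊓ lcw G (p + 1) ≤ P), mul_comm p]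
      refine Nat.mul_le_mul_left _ (le_relIndex_of_lt S.isP fun hh => hg ?_)
      exact (Subgroup.mem_inf.mp (hh (hpow g (hHtop ▸ mem_top g)))).2
    have htop : Nat.card H = p ^ 2 * Nat.card (H ⊓ lcw G 2 : Subgroup G) := by
      rw [hHtop, top_inf_eq, card_top, S.card, S.card_two, ← pow_add]
      congr 1; omega
    rw [htop, hsucc]
    calc p ^ 2 * Nat.card (H ⊓ lcw G 2 : Subgroup G)
        ≤ p ^ 2 * (p ^ (p - 1) * Nat.card (P ⊓ lcw G (p + 1) : Subgroup G)) :=
          Nat.mul_le_mul_left _ hcount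
      _ = p * p ^ (p - 1) * (p * Nat.card (P ⊓ lcw G (p + 1) : Subgroup G)) := by ring
      _ ≤ _ := Nat.mul_le_mul_left _ hextra
  · have hsmall : Nat.card H ≤ p * Nat.card (H ⊓ lcw G 2 : Subgroup G) := by
      have h1 := card_mul_relIndex (inf_le_left : H ⊓ lcw G 2 ≤ H)
      rw [← h1, mul_comm p, inf_relIndex_left]
      refine Nat.mul_le_mul_left _ ?_
      rw [← Subgroup.relIndex_sup_right H (lcw G 2)]
      obtain ⟨r, hr⟩ := exists_card_pow S.isP (H ⊔ lcw G 2 : Subgroup G)
      have hrn : r < n := by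
        by_contra hge
        apply hfull
        apply Subgroup.eq_top_of_le_card
        rw [S.card, hr]
        exact Nat.pow_le_pow_right hP.pos (by omega)
      have h3 := card_mul_relIndex (le_sup_right : lcw G 2 ≤ H ⊔ lcw G 2)
      rw [hr, S.card_two] at h3
      refine Nat.le_of_mul_le_mul_left
        (?_ : p ^ (n - 2) * (lcw G 2).relIndex (H ⊔ lcw G 2) ≤ p ^ (n - 2) * p)
        (pow_pos hP.pos _)
      rw [h3, ← pow_succ]
      exact Nat.pow_le_pow_right hP.pos (by omega)
    rw [hsucc, mul_assoc]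
    exact hsmall.trans (Nat.mul_le_mul_left _ (hcount.trans
      (Nat.mul_le_mul_left _ (Subgroup.card_le_of_le inf_le_left))))

end Cfsg.Agent.H24

namespace Cfsg.Agent.H24

open Subgroup

/-- With a cyclic subgroup of index two, the squares of a subgroup generate index at most four. -/
theorem relIndex_squares_le {G : Type*} [Group G] [Finite G] (C : Subgroup G) [IsCyclic C]
    (hC : C.index = 2) (H : Subgroup G) :
    (closure {y : G | ∃ h ∈ H, y = h ^ 2}).relIndex H ≤ 2 ^ 2 := by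
  set P := closure {y : G | ∃ h ∈ H, y = h ^ 2}
  have hPH : P ≤ H := (closure_le _).mpr fun y ⟨h, hh, e⟩ => e ▸ pow_mem hh 2
  have : IsCyclic (H ⊓ C : Subgroup G) := Subgroup.isCyclic_of_le inf_le_right
  obtain ⟨c, hc⟩ := Subgroup.isCyclic_iff_exists_zpowers_eq_top (H ⊓ C) |>.mp this
  have hcH : c ∈ H := (Subgroup.mem_inf.mp (hc ▸ mem_zpowers c : c ∈ H ⊓ C)).1
  have h1 : orderOf (c ^ 2) ≤ Nat.card P := by
    rw [← Nat.card_zpowers]
    exact Subgroup.card_le_of_le (zpowers_le.mpr (subset_closure ⟨c, hcH, rfl⟩))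
  have h2 : orderOf c ≤ 2 * orderOf (c ^ 2) :=
    Nat.le_of_dvd (Nat.mul_pos two_pos (orderOf_pos _))
      (orderOf_dvd_of_pow_eq_one (by rw [pow_mul, pow_orderOf_eq_one]))
  have h3 : Nat.card H ≤ 2 * orderOf c := by
    rw [← card_mul_relIndex (inf_le_left : H ⊓ C ≤ H), ← Nat.card_zpowers c, hc, mul_comm 2,
      inf_relIndex_left]
    refine Nat.mul_le_mul_left _ ?_
    rw [← hC, ← relIndex_top_right]
    exact relIndex_le_of_le_right le_top FiniteIndex.index_ne_zero
  have h4 : P.relIndex H * Nat.card P ≤ 2 ^ 2 * Nat.card P := by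
    rw [mul_comm, card_mul_relIndex hPH]
    omega
  exact Nat.le_of_mul_le_mul_right h4 Nat.card_pos

end Cfsg.Agent.H24
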