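import Cfsg.Agent.H24.Resistant
import Cfsg.Agent.H33.SupersolvableAction

/-!
Chains of strongly closed subgroups with cyclic steps in systems on a normal `S`.
-/

namespace Cfsg.Agent.H24

open Subgroup
open scoped commutatorElement

section Invariant

variable {p : ℕ} [hp : Fact p.Prime] {Q : Type*} [Group Q] [Finite Q] {A : Type*} [Group A]

/-- If a normal `p`-subgroup `K` of `A` contains the commutators and the `(p-1)`-th powers, every
nontrivial `p`-group acted on by `A` has an invariant central subgroup of order `p`. -/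
theorem exists_invariant_prime [Nontrivial Q] [Finite A] (hQ : IsPGroup p Q) (ρ : A →* MulAut Q)
    (K : Subgroup A) [K.Normal] (hK : IsPGroup p K) (hpow : ∀ a : A, a ^ (p - 1) ∈ K)
    (hcomm : commutator A ≤ K) :
    ∃ q : Q, q ≠ 1 ∧ q ^ p = 1 ∧ q ∈ center Q ∧ ∀ a : A, ρ a q ∈ zpowers q := by
  have hP : p.Prime := hp.out
  -- the fixed points of `K` on the central elements of order dividing `p`
  let W : Subgroup Q :=
    { carrier := {q | q ∈ center Q ∧ q ^ p = 1 ∧ ∀ k ∈ K, ρ k q = q}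
      one_mem' := ⟨one_mem _, one_pow p, fun k _ => map_one _⟩
      mul_mem' := by
        rintro u v ⟨hu, hup, huk⟩ ⟨hv, hvp, hvk⟩
        refine ⟨mul_mem hu hv, ?_, fun k hk => by rw [map_mul, huk k hk, hvk k hk]⟩
        rw [(show Commute u v from mem_center_iff.mp hv u).mul_pow, hup, hvp, one_mul]
      inv_mem' := by
        rintro u ⟨hu, hup, huk⟩
        exact ⟨inv_mem hu, by rw [inv_pow, hup, inv_one], fun k hk => by rw [map_inv, huk k hk]⟩ }
  have hcenA : ∀ (a : A) (q : Q), q ∈ center Q → ρ a q ∈ center Q := fun a q hq =>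
    mem_center_iff.mpr fun u => by
      obtain ⟨v, rfl⟩ := (ρ a).surjective u
      rw [← map_mul, ← map_mul, mem_center_iff.mp hq v]
  have hW : ∀ (a : A), ∀ q ∈ W, ρ a q ∈ W := by
    rintro a q ⟨hq, hqp, hqk⟩
    refine ⟨hcenA a q hq, by rw [← map_pow, hqp, map_one], fun k hk => ?_⟩
    have h := hqk (a⁻¹ * k * a) (by simpa using ‹K.Normal›.conj_mem k hk a⁻¹)
    rw [map_mul, map_mul, map_inv, MulAut.mul_apply, MulAut.mul_apply] at h
    calc ρ k (ρ a q) = ρ a ((ρ a)⁻¹ (ρ k (ρ a q))) := (MulAut.apply_inv_self _ _ _).symm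
      _ = ρ a q := by rw [h]
  have hWne : W ≠ ⊥ := by
    -- count the fixed points of `K`
    let Z : Subgroup Q :=
      { carrier := {q | q ∈ center Q ∧ q ^ p = 1}
        one_mem' := ⟨one_mem _, one_pow p⟩
        mul_mem' := by
          rintro u v ⟨hu, hup⟩ ⟨hv, hvp⟩
          refine ⟨mul_mem hu hv, ?_⟩
          rw [(show Commute u v from mem_center_iff.mp hv u).mul_pow, hup, hvp, one_mul]
        inv_mem' := by
          rintro u ⟨hu, hup⟩
          exact ⟨inv_mem hu, by rw [inv_pow, hup, inv_one]⟩ }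
    letI : MulAction K Z :=
      { smul := fun k q => ⟨ρ k q, hcenA _ _ q.2.1, by rw [← map_pow, q.2.2, map_one]⟩
        one_smul := fun q => Subtype.ext (by show ρ ((1 : K) : A) q = q; simp)
        mul_smul := fun k l q => Subtype.ext (by
          show ρ ((k * l : K) : A) q = ρ k (ρ l q); simp) }
    have : Nontrivial (center Q) := hQ.center_nontrivial
    have hdvd : p ∣ Nat.card (center Q) := by
      obtain ⟨m, hm, hcard⟩ := (hQ.to_subgroup (center Q)).nontrivial_iff_card.1 inferInstance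
      exact hcard ▸ dvd_pow_self p hm.ne'
    obtain ⟨g, hg⟩ := exists_prime_orderOf_dvd_card' p hdvd
    let g' : Z := ⟨(g : Q), g.2, by rw [← Subgroup.coe_pow, ← hg, pow_orderOf_eq_one]; rfl⟩
    have hg1 : (g : Q) ≠ 1 := by
      intro h
      rw [show g = 1 from Subtype.ext h, orderOf_one] at hg
      exact hP.one_lt.ne' hg.symm
    have hpZ : p ∣ Nat.card Z := by
      have h1 : orderOf g' = p := orderOf_eq_prime
        (Subtype.ext (by simpa using g'.2.2)) fun h => hg1 (congrArg Subtype.val h)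
      exact h1 ▸ orderOf_dvd_natCard g'
    obtain ⟨b, hb, hb1⟩ := hK.exists_fixed_point_of_prime_dvd_card_of_fixed_point Z hpZ
      (a := 1) (fun k => Subtype.ext (show ρ k (1 : Q) = 1 from map_one _))
    intro hbot
    apply hb1
    refine (Subtype.ext ?_).symm
    exact Subgroup.mem_bot.1 (hbot ▸ ⟨b.2.1, b.2.2, fun k hk => congrArg Subtype.val (hb ⟨k, hk⟩)⟩)
  -- a minimal invariant subgroup
  classical
  obtain ⟨W₀, ⟨hW₀W, hW₀ne, hW₀inv⟩, hmin⟩ := Set.Finite.exists_minimal
    (s := {U : Subgroup Q | U ≤ W ∧ U ≠ ⊥ ∧ ∀ a : A, ∀ q ∈ U, ρ a q ∈ U}) (Set.toFinite _)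
    ⟨W, le_rfl, hWne, hW⟩
  -- each element is scalar on it
  have hscal : ∀ a : A, ∃ i : ℕ, ∀ q ∈ W₀, ρ a q = q ^ i := by
    intro a
    have hc0 : ∀ u ∈ W₀, ∀ v ∈ W₀, Commute u v := fun u _ v hv => mem_center_iff.mp (hW₀W hv).1 u
    letI : CommGroup W₀ := { (inferInstance : Group W₀) with
      mul_comm := fun u v => Subtype.ext (hc0 u u.2 v v.2).eq }
    let f : Additive W₀ →+ Additive W₀ := MonoidHom.toAdditive
      (((ρ a).toMonoidHom.comp W₀.subtype).codRestrict W₀ fun u => hW₀inv a u u.2)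
    have hit : ∀ (j : ℕ) (v : Additive W₀),
        (((⇑f)^[j] v).toMul : Q) = ρ (a ^ j) (v.toMul : Q) := by
      intro j
      induction j with
      | zero => intro v; simp
      | succ j ih =>
        intro v
        rw [Function.iterate_succ_apply', pow_succ', map_mul, MulAut.mul_apply, ← ih]
        rfl
    obtain ⟨v, hv, hv1⟩ := W₀.bot_or_exists_ne_one.resolve_left hW₀ne
    obtain ⟨i, w, hw, hwc⟩ := H33.exists_eigen_multiple (p := p)
      (fun z : Additive W₀ => Additive.toMul.injective (Subtype.ext (by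
        rw [toMul_nsmul]; exact (hW₀W (Additive.toMul z).2).2.1))) f
      (fun z => Additive.toMul.injective (Subtype.ext (by
        rw [hit]
        exact (hW₀W (Additive.toMul z).2).2.2 _ (hpow a))))
      (v := Additive.ofMul ⟨v, hv⟩) (fun e => hv1 (congrArg (fun z => ((z.toMul : W₀) : Q)) e))
    let U : Subgroup Q :=
      { carrier := {q | q ∈ W₀ ∧ ρ a q = q ^ i}
        one_mem' := ⟨one_mem _, by rw [map_one, one_pow]⟩
        mul_mem' := by
          rintro u v ⟨hu, hua⟩ ⟨hv, hva⟩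
          exact ⟨mul_mem hu hv, by rw [map_mul, hua, hva, (hc0 u hu v hv).mul_pow]⟩
        inv_mem' := by
          rintro u ⟨hu, hua⟩
          exact ⟨inv_mem hu, by rw [map_inv, hua, inv_pow]⟩ }
    have hU : W₀ ≤ U := by
      refine hmin ⟨fun u hu => hW₀W hu.1, ?_, ?_⟩ fun u hu => hu.1
      · intro hbot
        refine hw (Additive.toMul.injective (Subtype.ext ?_))
        refine Subgroup.mem_bot.1 (hbot ▸ (⟨(Additive.toMul w).2, ?_⟩ : _ ∈ U))
        have h := congrArg (fun z => ((z.toMul : W₀) : Q)) hwc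
        simp only [toMul_nsmul, SubmonoidClass.coe_pow] at h
        exact h
      · rintro b u ⟨hu, hua⟩
        refine ⟨hW₀inv b u hu, ?_⟩
        have hk := (hW₀W (hW₀inv a _ (hW₀inv b u hu))).2.2 _
          (hcomm (commutator_mem_commutator (mem_top b) (mem_top a)))
        rw [commutatorElement_def, map_mul, map_mul, map_mul, map_inv, map_inv] at hk
        simp only [MulAut.mul_apply, MulAut.inv_apply_self] at hk
        rw [hua] at hk
        rw [← hk, map_pow]
    exact ⟨i, fun q hq => (hU hq).2⟩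
  obtain ⟨q, hq, hq1⟩ := W₀.bot_or_exists_ne_one.resolve_left hW₀ne
  refine ⟨q, hq1, (hW₀W hq).2.1, (hW₀W hq).1, fun a => ?_⟩
  obtain ⟨i, hi⟩ := hscal a
  rw [hi q hq]
  exact pow_mem (mem_zpowers q) i

end Invariant

variable {Ω : Type*} [Group Ω] {S : Subgroup Ω} [Finite S] {F : FusionSystem S} {p : ℕ}
  [hp : Fact p.Prime]

/-- If `S` is normal in the system, subgroups invariant under `Aut_F(S)` are strongly closed. -/
theorem stronglyClosed_of_invariant (hN : F.IsNormal S) (R : Subgroup S)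
    (hR : ∀ α ∈ F.autGroup S, ∀ x ∈ R, α x ∈ R) : F.StronglyClosed (R.map S.subtype) := by
  refine ⟨map_subtype_le R, fun P hP φ hφ x => ?_⟩
  obtain ⟨ψ, hψ, hψx, hψS⟩ := hN.2 P φ hφ
  have hPS : P ≤ S := hP.trans (map_subtype_le R)
  have hψ' : ψ.comp (inclusion (le_sup_right : S ≤ P ⊔ S)) ∈ F.Hom S := H93.restrict_mem hψ le_sup_right
  obtain ⟨y, hy, hyx⟩ := hP x.2
  refine ⟨_, hR _ (H93.homEquiv_mem_autGroup hψ' (H93.range_eq_self hψ')) y hy, ?_⟩
  show ψ (inclusion le_sup_right y) = φ x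
  rw [← hψx]
  exact congrArg ψ (Subtype.ext hyx)

/-- If a normal `p`-subgroup of `Aut_F(S)` contains commutators and `(p-1)`-th powers and `S` is
normal in the system, there is a chain of strongly closed subgroups with cyclic steps. -/
theorem exists_supersoluble_chain (hS : IsPGroup p S) (hN : F.IsNormal S)
    (K : Subgroup (F.autGroup S)) [K.Normal] (hK : IsPGroup p K)
    (hpow : ∀ a : F.autGroup S, a ^ (p - 1) ∈ K) (hcomm : commutator (F.autGroup S) ≤ K) :
    ∃ (m : ℕ) (c : Fin (m + 1) → Subgroup Ω), c 0 = ⊥ ∧ c (Fin.last m) = S ∧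
      (∀ i : Fin (m + 1), F.StronglyClosed (c i)) ∧
      ∀ i : Fin m, c i.castSucc ≤ c i.succ ∧ ∃ x ∈ S, c i.succ = c i.castSucc ⊔ zpowers x := by
  have := H93.finite_mulAut (S := S) le_rfl
  have hinn : ∀ s : S, (MulAut.conj s : MulAut S) ∈ F.autGroup S := fun s =>
    H93.autInducedBy_le_autGroup F le_rfl (H93.mem_autInducedBy.2 ⟨(s : Ω), s.2, fun x => rfl⟩)
  have main : ∀ (d : ℕ) (R : Subgroup S), R.index = d → (∀ α ∈ F.autGroup S, ∀ x ∈ R, α x ∈ R) →
      ∃ (m : ℕ) (c : Fin (m + 1) → Subgroup Ω), c 0 = R.map S.subtype ∧ c (Fin.last m) = S ∧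
        (∀ i : Fin (m + 1), F.StronglyClosed (c i)) ∧
        ∀ i : Fin m, c i.castSucc ≤ c i.succ ∧ ∃ x ∈ S, c i.succ = c i.castSucc ⊔ zpowers x := by
    intro d
    induction d using Nat.strong_induction_on with
    | _ d ih =>
    intro R hd hR
    rcases eq_or_ne R ⊤ with rfl | hRne
    · refine ⟨0, fun _ => S, by simp [← MonoidHom.range_eq_map], rfl, fun _ => ?_, fun i => i.elim0⟩
      have := stronglyClosed_of_invariant hN ⊤ (fun _ _ _ _ => mem_top _)
      rwa [← MonoidHom.range_eq_map, range_subtype] at this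
    have hRn : R.Normal := ⟨fun x hx g => hR _ (hinn g) x hx⟩
    have hmap : ∀ α : F.autGroup S, R.map (α : MulAut S).toMonoidHom = R := fun α => by
      refine le_antisymm ?_ fun x hx => ⟨_, hR _ (inv_mem α.2) x hx, by simp⟩
      rintro _ ⟨x, hx, rfl⟩
      exact hR _ α.2 x hx
    let ρ : F.autGroup S →* MulAut (S ⧸ R) :=
      { toFun := fun α => QuotientGroup.congr R R (α : MulAut S) (hmap α)
        map_one' := MulEquiv.ext fun v => by
          obtain ⟨u, rfl⟩ := QuotientGroup.mk_surjective v; rfl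
        map_mul' := fun a b => MulEquiv.ext fun v => by
          obtain ⟨u, rfl⟩ := QuotientGroup.mk_surjective v; rfl }
    have : Nontrivial (S ⧸ R) := QuotientGroup.nontrivial_iff.2 hRne
    obtain ⟨q, hq1, -, -, hqA⟩ := exists_invariant_prime (hS.to_quotient R) ρ K hK hpow hcomm
    obtain ⟨x, rfl⟩ := QuotientGroup.mk_surjective q
    set R' := (zpowers (x : S ⧸ R)).comap (QuotientGroup.mk' R) with hR'
    have hR'inv : ∀ α ∈ F.autGroup S, ∀ y ∈ R', α y ∈ R' := by
      intro α hα y hy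
      obtain ⟨i, hi⟩ := mem_zpowers_iff.1 hy
      show (α y : S ⧸ R) ∈ zpowers (x : S ⧸ R)
      have h1 : ρ ⟨α, hα⟩ (QuotientGroup.mk' R y) = (α y : S ⧸ R) := rfl
      rw [← h1, ← hi, map_zpow]
      exact zpow_mem (hqA ⟨α, hα⟩) i
    have hRR' : R = R' ⊓ R := (inf_eq_right.2 fun y hy => by
      show (y : S ⧸ R) ∈ zpowers (x : S ⧸ R)
      rw [(QuotientGroup.eq_one_iff y).2 hy]; exact one_mem _).symm
    have hle : R ≤ R' := hRR'.le.trans inf_le_left
    have hxR : x ∉ R := fun h => hq1 ((QuotientGroup.eq_one_iff x).2 h)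
    have hsup : R' = R ⊔ zpowers x := by
      refine le_antisymm (fun y hy => ?_)
        (sup_le hle (zpowers_le.mpr (mem_zpowers (x : S ⧸ R))))
      obtain ⟨i, hi⟩ := mem_zpowers_iff.1 hy
      rw [QuotientGroup.mk'_apply, ← QuotientGroup.mk_zpow, QuotientGroup.eq] at hi
      have := mul_mem (mem_sup_right (S := R) (zpow_mem (mem_zpowers x) i)) (mem_sup_left hi)
      rwa [mul_inv_cancel_left] at this
    have hlt : R'.index < d := by
      rw [← hd, ← relIndex_mul_index hle]
      refine lt_mul_of_one_lt_left (Nat.pos_of_ne_zero FiniteIndex.index_ne_zero) ?_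
      exact lt_of_lt_of_le hp.out.one_lt (le_relIndex_of_lt hS fun h' =>
        hxR (h' (hsup ▸ mem_sup_right (mem_zpowers x))))
    obtain ⟨m, c, hc0, hcl, hcs, hcstep⟩ := ih _ hlt R' rfl hR'inv
    refine ⟨m + 1, Fin.cons (R.map S.subtype) c, rfl, ?_, fun i => ?_, fun i => ?_⟩
    · rw [← Fin.succ_last, Fin.cons_succ, hcl]
    · refine Fin.cases ?_ (fun j => ?_) i
      · exact stronglyClosed_of_invariant hN R hR
      · rw [Fin.cons_succ]; exact hcs j
    · refine Fin.cases ?_ (fun j => ?_) i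
      · rw [Fin.castSucc_zero, Fin.cons_zero, Fin.cons_succ, hc0]
        refine ⟨Subgroup.map_mono hle, (x : Ω), x.2, ?_⟩
        rw [hsup, Subgroup.map_sup, MonoidHom.map_zpowers]
        rfl
      · rw [← Fin.succ_castSucc, Fin.cons_succ, Fin.cons_succ]
        exact hcstep j
  obtain ⟨m, c, hc0, hc⟩ := main _ ⊥ rfl fun α _ x hx => by
    rw [Subgroup.mem_bot.1 hx, map_one]; exact one_mem _
  exact ⟨m, c, hc0.trans (Subgroup.map_bot _), hc⟩

/-- The variant with an `Aut_F(S)`-invariant line in the Frattini quotient. -/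
theorem exists_supersoluble_chain_of_line (hS : IsPGroup p S) (hN : F.IsNormal S) (L : Subgroup S)
    (hΦL : frattini S ≤ L) (hidx : (frattini S).index ≤ p ^ 2) (hL : L.index = p)
    (hinv : ∀ α ∈ F.autGroup S, ∀ x ∈ L, α x ∈ L) :
    ∃ (m : ℕ) (c : Fin (m + 1) → Subgroup Ω), c 0 = ⊥ ∧ c (Fin.last m) = S ∧
      (∀ i : Fin (m + 1), F.StronglyClosed (c i)) ∧
      ∀ i : Fin m, c i.castSucc ≤ c i.succ ∧ ∃ x ∈ S, c i.succ = c i.castSucc ⊔ zpowers x := by
  have hP : p.Prime := hp.out
  have := H93.finite_mulAut (S := S) le_rfl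
  set A := F.autGroup S
  have : L.Normal := Subgroup.Normal.of_commutator_le S ((commutator_le_frattini hS).trans hΦL)
  -- both layers have order at most `p`
  have hrel : (frattini S).relIndex L ≤ p := by
    have := relIndex_mul_index hΦL
    rw [hL] at this
    rw [← this, pow_two] at hidx
    exact Nat.le_of_mul_le_mul_right hidx hP.pos
  let K : Subgroup A :=
    { carrier := {a | (∀ x, (a : MulAut S) x * x⁻¹ ∈ L) ∧
        ∀ x ∈ L, (a : MulAut S) x * x⁻¹ ∈ frattini S}
      one_mem' := ⟨fun x => by simp, fun x _ => by simp⟩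
      mul_mem' := by
        rintro a b ⟨ha1, ha2⟩ ⟨hb1, hb2⟩
        refine ⟨fun x => ?_, fun x hx => ?_⟩
        · have h := mul_mem (hinv _ a.2 _ (hb1 x)) (ha1 x)
          simpa [mul_assoc] using h
        · have h := mul_mem (frattini_apply_mem (a : MulAut S) (hb2 x hx)) (ha2 x hx)
          simpa [mul_assoc] using h
      inv_mem' := by
        rintro a ⟨ha1, ha2⟩
        refine ⟨fun x => ?_, fun x hx => ?_⟩
        · have h := L.inv_mem (ha1 ((a : MulAut S)⁻¹ x))
          simpa [mul_assoc] using h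
        · have h := (frattini S).inv_mem (ha2 ((a : MulAut S)⁻¹ x) (hinv _ (inv_mem a.2) x hx))
          simpa [mul_assoc] using h }
  have hKn : K.Normal := by
    constructor
    rintro c ⟨hc1, hc2⟩ a
    have key : ∀ x : S, ((a * c * a⁻¹ : A) : MulAut S) x * x⁻¹ =
        (a : MulAut S) ((c : MulAut S) ((a : MulAut S)⁻¹ x) * ((a : MulAut S)⁻¹ x)⁻¹) :=
      fun x => by simp
    refine ⟨fun x => ?_, fun x hx => ?_⟩
    · rw [key]; exact hinv _ a.2 _ (hc1 _)
    · rw [key]; exact frattini_apply_mem _ (hc2 _ (hinv _ (inv_mem a.2) x hx))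
  have hKp : IsPGroup p K := by
    have h := isPGroup_of_line hS L hΦL (K.map A.subtype)
      (by rintro _ ⟨c, hc, rfl⟩; exact hc.1) (by rintro _ ⟨c, hc, rfl⟩; exact hc.2)
    exact IsPGroup.of_equiv h (K.equivMapOfInjective _ A.subtype_injective).symm
  -- scalars on the layers
  have hgenL : ∃ l : S, l ∈ L ∧ ∀ x ∈ L, ∃ i : ℕ, QuotientGroup.mk' (frattini S) x =
      QuotientGroup.mk' (frattini S) l ^ i := by
    by_cases hLΦ : L ≤ frattini S
    · exact ⟨1, one_mem _, fun x hx => ⟨0, by rw [pow_zero]; exact frq_eq_one.2 (hLΦ hx)⟩⟩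
    obtain ⟨l, hl, hlΦ⟩ := SetLike.not_le_iff_exists.1 hLΦ
    have hcard : Nat.card L = p * Nat.card (frattini S) := by
      have h1 := card_mul_relIndex hΦL
      have h2 : p ≤ (frattini S).relIndex L := le_relIndex_of_lt hS hLΦ
      rw [le_antisymm hrel h2] at h1
      rw [← h1, mul_comm]
    exact ⟨l, hl, fun x hx => by
      obtain ⟨i, hi⟩ := exists_pow_mul_mem (p := p) hΦL hcard hl hlΦ hx
      exact ⟨i, by rw [← map_pow]; exact (QuotientGroup.eq.2 hi).symm⟩⟩
  obtain ⟨l, hlL, hl⟩ := hgenL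
  obtain ⟨d, hdL⟩ : ∃ d : S, d ∉ L := by
    by_contra hcon
    push Not at hcon
    exact hP.one_lt.ne' (by rw [← hL, show L = ⊤ from eq_top_iff.2 fun x _ => hcon x, index_top])
  have hd : ∀ x : S, ∃ i : ℕ, (x : S ⧸ L) = (d : S ⧸ L) ^ i := fun x => by
    obtain ⟨i, hi⟩ := exists_pow_mul_mem (p := p) (le_top (a := L))
      (by rw [card_top, ← card_mul_index L, hL, mul_comm]) (mem_top d) hdL (mem_top x)
    exact ⟨i, by rw [← QuotientGroup.mk_pow]; exact (QuotientGroup.eq.2 hi).symm⟩
  -- membership through the characters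
  have hmem : ∀ a : A, (a : MulAut S) d * d⁻¹ ∈ L →
      (a : MulAut S) l * l⁻¹ ∈ frattini S → a ∈ K := by
    intro a h1 h2
    refine ⟨fun x => ?_, fun x hx => ?_⟩
    · obtain ⟨i, hi⟩ := hd x
      rw [← QuotientGroup.mk_pow, QuotientGroup.eq] at hi
      rw [← QuotientGroup.eq_one_iff, QuotientGroup.mk_mul, QuotientGroup.mk_inv, mul_inv_eq_one]
      have hx' := hinv _ a.2 _ hi
      rw [map_mul, map_inv, map_pow] at hx'
      rw [← QuotientGroup.eq] at hx' hi
      rw [hx', hi, QuotientGroup.mk_pow, QuotientGroup.mk_pow]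
      congr 1
      rwa [← mul_inv_eq_one, ← QuotientGroup.mk_inv, ← QuotientGroup.mk_mul, QuotientGroup.eq_one_iff]
    · obtain ⟨i, hi⟩ := hl x hx
      rw [← map_pow] at hi
      rw [← frq_eq_one, map_mul, map_inv, mul_inv_eq_one, frq_apply_congr (a : MulAut S) hi, hi,
        map_pow, map_pow, map_pow]
      congr 1
      rwa [← mul_inv_eq_one, ← map_inv, ← map_mul, frq_eq_one]
  have hchar : ∀ a : A, ∃ r s : ℕ, ((a : MulAut S) d : S ⧸ L) = (d : S ⧸ L) ^ r ∧
      frq S ((a : MulAut S) l) = frq S l ^ s := fun a => by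
    obtain ⟨r, hr⟩ := hd ((a : MulAut S) d)
    obtain ⟨s, hs⟩ := hl _ (hinv _ a.2 l hlL)
    exact ⟨r, s, hr, hs⟩
  have hcompose : ∀ (a b : A) (r s r' s' : ℕ),
      ((a : MulAut S) d : S ⧸ L) = (d : S ⧸ L) ^ r → frq S ((a : MulAut S) l) = frq S l ^ s →
      ((b : MulAut S) d : S ⧸ L) = (d : S ⧸ L) ^ r' → frq S ((b : MulAut S) l) = frq S l ^ s' →
      (((a * b : A) : MulAut S) d : S ⧸ L) = (d : S ⧸ L) ^ (r * r') ∧
        frq S (((a * b : A) : MulAut S) l) = frq S l ^ (s * s') := by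
    intro a b r s r' s' ha1 ha2 hb1 hb2
    constructor
    · rw [← QuotientGroup.mk_pow, QuotientGroup.eq] at hb1
      have h := hinv _ a.2 _ hb1
      rw [map_mul, map_inv, map_pow, ← QuotientGroup.eq, QuotientGroup.mk_pow, ha1, ← pow_mul] at h
      exact h
    · rw [← map_pow] at hb2
      rw [Subgroup.coe_mul, MulAut.mul_apply, frq_apply_congr (a : MulAut S) hb2, map_pow, map_pow,
        ha2, ← pow_mul]
  have hdp : (d : S ⧸ L) ^ p = 1 := by
    rw [← QuotientGroup.mk_pow]; exact (QuotientGroup.eq_one_iff _).2 (hΦL (pow_mem_frattini hS d))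
  have hunit : ∀ a : A, ∀ r s : ℕ, ((a : MulAut S) d : S ⧸ L) = (d : S ⧸ L) ^ r →
      frq S ((a : MulAut S) l) = frq S l ^ s →
      (r : ZMod p) ≠ 0 ∧ (l ∉ frattini S → (s : ZMod p) ≠ 0) := by
    intro a r s h1 h2
    refine ⟨fun h0 => hdL ?_, fun hlΦ h0 => hlΦ ?_⟩
    · rw [pow_eq_pow_of_cast hdp (h0.trans Nat.cast_zero.symm), pow_zero, QuotientGroup.eq_one_iff]
        at h1
      have := hinv _ (inv_mem a.2) _ h1
      simpa using this
    · rw [pow_eq_pow_of_cast (frq_pow hS l) (h0.trans Nat.cast_zero.symm), pow_zero, frq_eq_one] at h2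
      have := frattini_apply_mem (a : MulAut S)⁻¹ h2
      simpa using this
  have hpow : ∀ a : A, a ^ (p - 1) ∈ K := by
    intro a
    obtain ⟨r, s, hr, hs⟩ := hchar a
    have hn : ∀ n : ℕ, (((a ^ n : A) : MulAut S) d : S ⧸ L) = (d : S ⧸ L) ^ r ^ n ∧
        frq S (((a ^ n : A) : MulAut S) l) = frq S l ^ s ^ n := by
      intro n
      induction n with
      | zero => simp
      | succ n ih =>
        rw [pow_succ' a n, pow_succ' r n, pow_succ' s n]
        exact hcompose a (a ^ n) r s _ _ hr hs ih.1 ih.2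
    obtain ⟨h1, h2⟩ := hn (p - 1)
    obtain ⟨hr0, hs0⟩ := hunit a r s hr hs
    refine hmem _ ?_ ?_
    · rw [← QuotientGroup.eq_one_iff, QuotientGroup.mk_mul, QuotientGroup.mk_inv, mul_inv_eq_one, h1]
      conv_rhs => rw [← pow_one (d : S ⧸ L)]
      exact pow_eq_pow_of_cast hdp (by rw [Nat.cast_pow, ZMod.pow_card_sub_one_eq_one hr0, Nat.cast_one])
    · rw [← frq_eq_one, map_mul, map_inv, mul_inv_eq_one, h2]
      by_cases hlΦ : l ∈ frattini S
      · rw [frq_eq_one.2 hlΦ, one_pow]
      · conv_rhs => rw [← pow_one (frq S l)]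
        exact pow_eq_pow_of_cast (frq_pow hS l)
          (by rw [Nat.cast_pow, ZMod.pow_card_sub_one_eq_one (hs0 hlΦ), Nat.cast_one])
  have hcomm : commutator A ≤ K := by
    rw [_root_.commutator_def, Subgroup.commutator_le]
    intro a _ b _
    obtain ⟨r, s, hr, hs⟩ := hchar a
    obtain ⟨r', s', hr', hs'⟩ := hchar b
    have h1 := hcompose a b r s r' s' hr hs hr' hs'
    have h2 := hcompose b a r' s' r s hr' hs' hr hs
    have hab : a * b * (b * a)⁻¹ ∈ K := by
      set u := ((b * a : A)⁻¹ : A) with hu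
      refine hmem _ ?_ ?_
      · set e := ((u : A) : MulAut S) d with he
        rw [← QuotientGroup.eq_one_iff, QuotientGroup.mk_mul, QuotientGroup.mk_inv, mul_inv_eq_one]
        obtain ⟨i, hi⟩ := hd e
        rw [← QuotientGroup.mk_pow, QuotientGroup.eq] at hi
        have h3 := hinv _ (a * b).2 _ hi
        have h4 := hinv _ (b * a).2 _ hi
        rw [map_mul, map_inv, map_pow, ← QuotientGroup.eq, QuotientGroup.mk_pow, h1.1] at h3
        rw [map_mul, map_inv, map_pow, ← QuotientGroup.eq, QuotientGroup.mk_pow, h2.1] at h4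
        have h5 : ((b * a : A) : MulAut S) e = d := by
          rw [he, hu, Subgroup.coe_inv, MulAut.apply_inv_self]
        rw [h5] at h4
        show (((a * b : A) : MulAut S) e : S ⧸ L) = d
        rw [h3, mul_comm r]; exact h4.symm
      · set e := ((u : A) : MulAut S) l with he
        rw [← frq_eq_one, map_mul, map_inv, mul_inv_eq_one]
        obtain ⟨i, hi⟩ := hl e (hinv _ u.2 l hlL)
        rw [← map_pow] at hi
        have h3 := frq_apply_congr ((a * b : A) : MulAut S) hi
        have h4 := frq_apply_congr ((b * a : A) : MulAut S) hi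
        rw [map_pow, map_pow, h1.2] at h3
        rw [map_pow, map_pow, h2.2] at h4
        have h5 : ((b * a : A) : MulAut S) e = l := by
          rw [he, hu, Subgroup.coe_inv, MulAut.apply_inv_self]
        rw [h5] at h4
        show frq S (((a * b : A) : MulAut S) e) = frq S l
        rw [h3, mul_comm s]; exact h4.symm
    simpa [commutatorElement_def, mul_assoc] using hab
  exact exists_supersoluble_chain hS hN K hKp hpow hcomm

end Cfsg.Agent.H24
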